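import Mathlib
import Cfsg.Agent.H420.PG.G2Mod

/-!
# Modules of `SL₃(q)`, `q` a power of three: fixed points of `U`, characters of the diagonal torus (helper420)

* `exists_fix_U` : if `R'` has fixed points then so has `U`;
* `eigen` : on the fixed points of `U` all characters of the diagonal torus are trivial;
* `diag_trivial` : diagonal elements of order prime to the characteristic are trivial on the fixed points of `U`.
-/

set_option autoImplicit false
set_option linter.unusedSectionVars false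

namespace Cfsg.Agent.H420.PG.G2

open Matrix Module

section Mod

variable {F E 𝕜 V : Type*} [Field F] [Fintype F] [CharP F 3] [Field E] [Fintype E] [Algebra F E] [Field 𝕜]
  [AddCommGroup V] [Module 𝕜 V] (S : Matrix.SpecialLinearGroup (Fin 3) F →* Module.End 𝕜 V)

/-! ### The first step -/

/-- a block matrix -/
def gg (a b c d : F) (h : a * d - b * c = 1) : Matrix.SpecialLinearGroup (Fin 3) F :=
  ⟨!![1, 0, 0; 0, a, b; 0, c, d], by rw [det_fin_three]; simpa using h⟩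

theorem gg_coe (a b c d : F) (h : a * d - b * c = 1) :
    (gg a b c d h : Matrix (Fin 3) (Fin 3) F) = !![1, 0, 0; 0, a, b; 0, c, d] := rfl

theorem u_gg (a b c d : F) (h : a * d - b * c = 1) (x y : F) :
    u x 0 y * gg a b c d h = gg a b c d h * u (x * a + y * c) 0 (x * b + y * d) := by
  apply eqM
  rw [Matrix.SpecialLinearGroup.coe_mul, Matrix.SpecialLinearGroup.coe_mul, gg_coe, u_coe, u_coe]
  ext i j
  fin_cases i <;> fin_cases j <;> simp [Matrix.mul_apply, Fin.sum_univ_succ]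

theorem exists_gg (M : Matrix.SpecialLinearGroup (Fin 3) F) (hM : M.1 1 0 = 0 → M.1 2 0 ≠ 0) :
    ∃ (a b c d : F) (h : a * d - b * c = 1) (N : Matrix.SpecialLinearGroup (Fin 3) F), M = gg a b c d h * N ∧
      N.1 1 0 = 1 ∧ N.1 2 0 = 0 := by
  by_cases h1 : M.1 1 0 = 0
  · have h2 := hM h1
    have hh : (0 : F) * 0 - (-(M.1 2 0)⁻¹) * (M.1 2 0) = 1 := by
      field_simp
      ring
    refine ⟨0, -(M.1 2 0)⁻¹, M.1 2 0, 0, hh, (gg 0 (-(M.1 2 0)⁻¹) (M.1 2 0) 0 hh)⁻¹ * M, ?_, ?_, ?_⟩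
    · rw [mul_inv_cancel_left]
    · show ((Matrix.adjugate _ * M.1 : Matrix (Fin 3) (Fin 3) F)) 1 0 = 1
      rw [gg_coe, Matrix.adjugate_fin_three]
      simp [Matrix.mul_apply, Fin.sum_univ_succ, h1, h2]
    · show ((Matrix.adjugate _ * M.1 : Matrix (Fin 3) (Fin 3) F)) 2 0 = 0
      rw [gg_coe, Matrix.adjugate_fin_three]
      simp [Matrix.mul_apply, Fin.sum_univ_succ, h1, h2]
  · have hh : M.1 1 0 * (M.1 1 0)⁻¹ - 0 * (M.1 2 0) = 1 := by
      field_simp
      ring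
    refine ⟨M.1 1 0, 0, M.1 2 0, (M.1 1 0)⁻¹, hh, (gg (M.1 1 0) 0 (M.1 2 0) (M.1 1 0)⁻¹ hh)⁻¹ * M, ?_, ?_, ?_⟩
    · rw [mul_inv_cancel_left]
    · show ((Matrix.adjugate _ * M.1 : Matrix (Fin 3) (Fin 3) F)) 1 0 = 1
      rw [gg_coe, Matrix.adjugate_fin_three]
      simp [Matrix.mul_apply, Fin.sum_univ_succ, h1]
    · show ((Matrix.adjugate _ * M.1 : Matrix (Fin 3) (Fin 3) F)) 2 0 = 0
      rw [gg_coe, Matrix.adjugate_fin_three]
      simp [Matrix.mul_apply, Fin.sum_univ_succ]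
      ring

theorem u_N (N : Matrix.SpecialLinearGroup (Fin 3) F) (h1 : N.1 1 0 = 1) (h2 : N.1 2 0 = 0) (s : F) :
    u 0 s (s * N.1 0 0) * N = N * u (s * N.1 2 1) 0 (s * N.1 2 2) := by
  apply eqM
  rw [Matrix.SpecialLinearGroup.coe_mul, Matrix.SpecialLinearGroup.coe_mul, u_coe, u_coe]
  ext i j
  fin_cases i <;> fin_cases j <;> simp [Matrix.mul_apply, Fin.sum_univ_succ, h1, h2] <;> ring

/-- the sum over the elation group `R'` -/
noncomputable def ER : Module.End 𝕜 V := ∑ p : F × F, S (u p.1 0 p.2)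

theorem ER_apply (v : V) : ER S v = ∑ p : F × F, S (u p.1 0 p.2) v := by
  rw [ER, LinearMap.sum_apply]

theorem ER_right (a c : F) (v : V) : ER S (S (u a 0 c) v) = ER S v := by
  rw [ER_apply, ER_apply]
  refine Fintype.sum_equiv (Equiv.addRight (a, c)) _ _ fun p => ?_
  rw [← S_apply, u_mul]
  congr 2
  show _ = u (p.1 + a) 0 (p.2 + c)
  congr 1 <;> ring

theorem ER_left (a c : F) (v : V) : S (u a 0 c) (ER S v) = ER S v := by
  rw [ER_apply, map_sum]
  refine Fintype.sum_equiv (Equiv.addLeft (a, c)) _ _ fun p => ?_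
  rw [← S_apply, u_mul]
  congr 2
  show _ = u (a + p.1) 0 (c + p.2)
  congr 1 <;> ring

theorem ER_mid (b : F) (v : V) : S (u 0 b 0) (ER S v) = ER S (S (u 0 b 0) v) := by
  rw [ER_apply, ER_apply, map_sum]
  refine Fintype.sum_bijective (fun p : F × F => (p.1, p.2 - p.1 * b)) ?_ _ _ fun p => ?_
  · constructor
    · intro p p' h
      have h1 := congrArg Prod.fst h
      have h2 := congrArg Prod.snd h
      simp only at h1 h2
      rw [h1] at h2
      exact Prod.ext h1 (sub_left_injective h2)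
    · intro p
      refine ⟨(p.1, p.2 + p.1 * b), ?_⟩
      apply Prod.ext
      · rfl
      · show p.2 + p.1 * b - p.1 * b = p.2
        ring
  · rw [← S_apply, ← S_apply, u_mul, u_mul]
    congr 2
    show _ = u (p.1 + 0) (0 + b) (p.2 - p.1 * b + 0 + p.1 * b)
    congr 1 <;> ring

theorem ER_gg (a b c d : F) (h : a * d - b * c = 1) (v : V) :
    ER S (S (gg a b c d h) v) = S (gg a b c d h) (ER S v) := by
  rw [ER_apply, ER_apply, map_sum]
  refine Fintype.sum_bijective (fun p : F × F => (p.1 * a + p.2 * c, p.1 * b + p.2 * d)) ?_ _ _ fun p => ?_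
  · constructor
    · intro p p' h'
      have h1 := congrArg Prod.fst h'
      have h2 := congrArg Prod.snd h'
      simp only at h1 h2
      apply Prod.ext
      · linear_combination d * h1 - c * h2 - (p.1 - p'.1) * h
      · linear_combination a * h2 - b * h1 - (p.2 - p'.2) * h
    · intro p
      refine ⟨(p.1 * d - p.2 * c, p.2 * a - p.1 * b), ?_⟩
      apply Prod.ext
      · show (p.1 * d - p.2 * c) * a + (p.2 * a - p.1 * b) * c = p.1
        linear_combination p.1 * h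
      · show (p.1 * d - p.2 * c) * b + (p.2 * a - p.1 * b) * d = p.2
        linear_combination p.2 * h
  · rw [← S_apply, ← S_apply, u_gg]

/-- **`U` has fixed points.** -/
theorem exists_fix_U (e : Basis (Fin 3) F E) [Fintype (Tor F E)] (h3 : finrank F E = 3) (hq : (Fintype.card F : 𝕜) ≠ 0)
    (hsum : ∀ v, ∑ t : Tor F E, S (psi e t) v = 0) (h : ∃ v : V, v ≠ 0 ∧ ∀ a c, S (u a 0 c) v = v) :
    ∃ v : V, v ≠ 0 ∧ ∀ a b c, S (u a b c) v = v := by
  classical
  by_contra hcon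
  push Not at hcon
  have hU : ∀ v : V, (∀ a b c, S (u a b c) v = v) → v = 0 := by
    intro v hv
    by_contra h
    obtain ⟨a, b, c, habc⟩ := hcon v h
    exact habc (hv a b c)
  obtain ⟨v, hv0, hv⟩ := h
  apply hv0
  have h4 := congrArg (ER S) (hsum v)
  rw [map_zero, map_sum, ← Finset.add_sum_erase _ _ (Finset.mem_univ (1 : Tor F E)), map_one, map_one,
    Module.End.one_apply, Finset.sum_eq_zero, add_zero] at h4
  · have h5 : ER S v = ((Fintype.card (F × F) : ℕ) : 𝕜) • v := by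
      rw [ER_apply, Finset.sum_congr rfl (g := fun _ => v) (fun p _ => hv p.1 p.2), Finset.sum_const, Finset.card_univ,
        Nat.cast_smul_eq_nsmul]
    rw [h5, Fintype.card_prod, Nat.cast_mul] at h4
    exact (smul_eq_zero.1 h4).resolve_left (mul_ne_zero hq hq)
  · intro t ht
    have ht1 : t ≠ 1 := (Finset.mem_erase.1 ht).1
    obtain ⟨a, b, c, d, hh, N, hN, hN1, hN2⟩ := exists_gg (psi e t) (regular_pt e h3 ht1)
    rw [hN, S_apply, ER_gg]
    have h6 : ER S (S N v) = 0 := by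
      apply hU
      intro x y z
      have h7 : u x y z = u x 0 (z - x * y) * u 0 y 0 := by
        rw [u_mul]
        congr 1 <;> ring
      rw [h7, S_apply, ER_mid]
      have h8 : ER S (S (u 0 y 0) (S N v)) = ER S (S N v) := by
        have h9 : u 0 y 0 = u 0 0 (-(y * N.1 0 0)) * u 0 y (y * N.1 0 0) := by
          rw [u_mul]
          congr 1 <;> ring
        rw [h9, S_apply, ER_right, ← S_apply, u_N N hN1 hN2, S_apply, hv]
      rw [h8, ER_left]
    rw [h6, map_zero]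

/-! ### The projection onto the fixed points of `U` -/

/-- the fixed points of `U` -/
def VU : Submodule 𝕜 V where
  carrier := {v | ∀ a b c, S (u a b c) v = v}
  add_mem' := by
    intro v w hv hw a b c
    rw [map_add, hv, hw]
  zero_mem' := by
    intro a b c
    rw [map_zero]
  smul_mem' := by
    intro k v hv a b c
    rw [map_smul, hv]

theorem mem_VU {v : V} : v ∈ VU S ↔ ∀ a b c, S (u a b c) v = v := Iff.rfl

/-- the projection onto the fixed points of `U` -/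
noncomputable def pr : Module.End 𝕜 V :=
  ((Fintype.card F : 𝕜) ^ 3)⁻¹ • ∑ a : F, ∑ p : F × F, S (u a 0 0 * u 0 p.1 p.2)

theorem pr_apply (v : V) : pr S v = ((Fintype.card F : 𝕜) ^ 3)⁻¹ • ∑ a : F, ∑ p : F × F, S (u a 0 0) (S (u 0 p.1 p.2) v) := by
  rw [pr, LinearMap.smul_apply, LinearMap.sum_apply]
  congr 1
  refine Finset.sum_congr rfl fun a _ => ?_
  rw [LinearMap.sum_apply]
  refine Finset.sum_congr rfl fun p _ => ?_
  rw [S_apply]

theorem sum_left (a b c : F) (v : V) : S (u a b c) (∑ x : F, ∑ p : F × F, S (u x 0 0) (S (u 0 p.1 p.2) v)) =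
    ∑ x : F, ∑ p : F × F, S (u x 0 0) (S (u 0 p.1 p.2) v) := by
  rw [map_sum]
  refine Fintype.sum_equiv (Equiv.addLeft a) _ _ fun x => ?_
  rw [map_sum]
  refine Fintype.sum_equiv (Equiv.addLeft (b, c - (a + x) * b)) _ _ fun p => ?_
  rw [← S_apply, ← S_apply, ← S_apply, u_mul, u_mul, u_mul]
  congr 2
  show _ = u (a + x + 0) (0 + (b + p.1)) (0 + (c - (a + x) * b + p.2) + (a + x) * (b + p.1))
  congr 1 <;> ring

theorem sum_right (a b c : F) (v : V) : ∑ x : F, ∑ p : F × F, S (u x 0 0) (S (u 0 p.1 p.2) (S (u a b c) v)) =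
    ∑ x : F, ∑ p : F × F, S (u x 0 0) (S (u 0 p.1 p.2) v) := by
  refine Fintype.sum_equiv (Equiv.addRight a) _ _ fun x => ?_
  refine Fintype.sum_bijective (fun p : F × F => (p.1 + b, p.2 + c - a * p.1 - a * b)) ?_ _ _ fun p => ?_
  · constructor
    · intro p p' h
      have h1 := congrArg Prod.fst h
      have h2 := congrArg Prod.snd h
      simp only at h1 h2
      have h3 := add_right_cancel h1
      rw [h3] at h2
      exact Prod.ext h3 (by linear_combination h2)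
    · intro p
      refine ⟨(p.1 - b, p.2 - c + a * (p.1 - b) + a * b), ?_⟩
      apply Prod.ext
      · show p.1 - b + b = p.1
        ring
      · show p.2 - c + a * (p.1 - b) + a * b + c - a * (p.1 - b) - a * b = p.2
        ring
  · rw [← S_apply, ← S_apply, ← S_apply, u_mul, u_mul, u_mul]
    congr 2
    show _ = u (x + a + 0) (0 + (p.1 + b)) (0 + (p.2 + c - a * p.1 - a * b) + (x + a) * (p.1 + b))
    congr 1 <;> ring

theorem pr_mem (v : V) : pr S v ∈ VU S := by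
  intro a b c
  rw [pr_apply, map_smul, sum_left]

theorem pr_u (a b c : F) (v : V) : pr S (S (u a b c) v) = pr S v := by
  rw [pr_apply, pr_apply, sum_right]

theorem pr_of_mem (hq : (Fintype.card F : 𝕜) ≠ 0) {v : V} (hv : v ∈ VU S) : pr S v = v := by
  rw [pr_apply, Finset.sum_congr rfl (g := fun _ => ((Fintype.card (F × F) : ℕ) : 𝕜) • v), Finset.sum_const,
    Finset.card_univ, Fintype.card_prod, ← Nat.cast_smul_eq_nsmul 𝕜, smul_smul, smul_smul]
  · rw [Nat.cast_mul, show ((Fintype.card F : 𝕜) ^ 3)⁻¹ * (Fintype.card F : 𝕜) * ((Fintype.card F : 𝕜) * (Fintype.card F : 𝕜)) =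
      1 by field_simp, one_smul]
  · intro a _
    rw [Finset.sum_congr rfl (g := fun _ => v), Finset.sum_const, Finset.card_univ, Nat.cast_smul_eq_nsmul 𝕜]
    intro p _
    rw [hv, hv]

theorem D_mem (p : Fˣ × Fˣ) {v : V} (hv : v ∈ VU S) : S (D p) v ∈ VU S := by
  intro a b c
  have h1 : u a b c * D p = D p * u ((p.1 : F)⁻¹ * p.2 * a) ((p.1 : F)⁻¹ * ((p.2 : F) ^ 2)⁻¹ * b) (((p.1 : F) ^ 2)⁻¹ * (p.2 : F)⁻¹ * c) := by
    rw [D_mul_u]
    have hx := p.1.ne_zero
    have hy := p.2.ne_zero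
    congr 2
    · field_simp
    · field_simp
    · field_simp
  rw [← S_apply, h1, S_apply, hv]

/-- two projections with the same image and kernel -/
theorem pr_comm {f g : Module.End 𝕜 V} (hfg : ∀ v, g (f v) = v) (hq : (Fintype.card F : 𝕜) ≠ 0) (hmem : ∀ v ∈ VU S, f v ∈ VU S)
    (hpr : ∀ a b c, ∀ v, pr S (f (S (u a b c) (g v))) = pr S v) (v : V) : pr S (f v) = f (pr S v) := by
  have h1 : pr S (f (pr S v)) = f (pr S v) := pr_of_mem S hq (hmem _ (pr_mem S v))
  rw [← h1]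
  have h2 : ∀ a b c, pr S (f (S (u a b c) v)) = pr S (f v) := by
    intro a b c
    have := hpr a b c (f v)
    rwa [hfg] at this
  have h4 := pr_apply S v
  rw [h4, map_smul, map_smul, map_sum, map_sum]
  have h3 : ∀ a : F, pr S (f (∑ p : F × F, S (u a 0 0) (S (u 0 p.1 p.2) v))) = ((Fintype.card (F × F) : ℕ) : 𝕜) • pr S (f v) := by
    intro a
    rw [map_sum, map_sum, Finset.sum_congr rfl (g := fun _ => pr S (f v)), Finset.sum_const, Finset.card_univ,
      Nat.cast_smul_eq_nsmul 𝕜]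
    intro p _
    rw [← S_apply, u_mul, h2]
  simp_rw [h3]
  rw [Finset.sum_const, Finset.card_univ, Fintype.card_prod, ← Nat.cast_smul_eq_nsmul 𝕜, smul_smul, smul_smul,
    Nat.cast_mul, show ((Fintype.card F : 𝕜) ^ 3)⁻¹ * (Fintype.card F : 𝕜) * ((Fintype.card F : 𝕜) * (Fintype.card F : 𝕜)) =
      1 by field_simp, one_smul]

theorem pr_D (hq : (Fintype.card F : 𝕜) ≠ 0) (p : Fˣ × Fˣ) (v : V) : pr S (S (D p) v) = S (D p) (pr S v) := by
  refine pr_comm S (g := S (D p)⁻¹) (fun v => S_inv S _ v) hq (fun v hv => D_mem S p hv) (fun a b c v => ?_) v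
  rw [← S_apply, D_mul_u, S_apply, pr_u, S_inv']

/-! ### The rank one operators -/

theorem fix_n1 {v : V} (hv : v ∈ VU S) (b c : F) : S (u 0 b c) (S n1 v) = S n1 v := by
  have h := n1_u (F := F) c (-b)
  rw [neg_neg] at h
  rw [← S_apply, ← h, S_apply, hv]

theorem pr_n1 (hq : (Fintype.card F : 𝕜) ≠ 0) {v : V} (hv : v ∈ VU S) :
    (Fintype.card F : 𝕜) • pr S (S n1 v) = ∑ a : F, S (u a 0 0) (S n1 v) := by
  rw [pr_apply, smul_smul]
  have h1 : ∀ a : F, ∑ p : F × F, S (u a 0 0) (S (u 0 p.1 p.2) (S n1 v)) =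
      ((Fintype.card F : 𝕜) * (Fintype.card F : 𝕜)) • S (u a 0 0) (S n1 v) := by
    intro a
    rw [Finset.sum_congr rfl (g := fun _ => S (u a 0 0) (S n1 v)) (fun p _ => by rw [fix_n1 S hv]), Finset.sum_const,
      Finset.card_univ, Fintype.card_prod, ← Nat.cast_smul_eq_nsmul 𝕜, Nat.cast_mul]
  simp_rw [h1]
  rw [← Finset.smul_sum, smul_smul, show (Fintype.card F : 𝕜) * ((Fintype.card F : 𝕜) ^ 3)⁻¹ *
    ((Fintype.card F : 𝕜) * (Fintype.card F : 𝕜)) = 1 by field_simp, one_smul]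

theorem T1_inj (hq : (Fintype.card F : 𝕜) ≠ 0) {v : V} (hv : v ∈ VU S) (h : pr S (S n1 v) = 0) : v = 0 := by
  classical
  have h1 := pr_n1 S hq hv
  rw [h, smul_zero] at h1
  have h2 := congrArg (fun w => pr S (S n1 w)) h1
  simp only [map_zero, map_sum] at h2
  rw [← Finset.add_sum_erase _ _ (Finset.mem_univ (0 : F)), u_zero, S_one, ← S_apply, n1_mul_n1,
    pr_of_mem S hq (D_mem S _ hv), Finset.sum_eq_zero, add_zero] at h2
  · have h3 := congrArg (S (D (-1, -1))⁻¹) h2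
    rw [S_inv, map_zero] at h3
    exact h3.symm
  · intro a ha
    have ha0 : a ≠ 0 := (Finset.mem_erase.1 ha).1
    have h4 := n1_u_n1 (Units.mk0 a ha0)
    rw [Units.val_mk0] at h4
    rw [← S_apply, ← S_apply, h4, S_apply, S_apply, S_apply, pr_u, hv, pr_D S hq, h, map_zero]

theorem T1_sq (hq : (Fintype.card F : 𝕜) ≠ 0) {v : V} (hv : v ∈ VU S) (hD : ∀ p, S (D p) v = v) :
    (Fintype.card F : 𝕜) • pr S (S n1 (pr S (S n1 v))) = v + ((Fintype.card F : 𝕜) - 1) • pr S (S n1 v) := by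
  classical
  rw [← map_smul, ← map_smul, pr_n1 S hq hv, map_sum, map_sum, ← Finset.add_sum_erase _ _ (Finset.mem_univ (0 : F)), u_zero,
    S_one, ← S_apply, n1_mul_n1, hD, pr_of_mem S hq hv]
  congr 1
  rw [Finset.sum_congr rfl (g := fun _ => pr S (S n1 v)), Finset.sum_const, Finset.card_erase_of_mem (Finset.mem_univ _),
    Finset.card_univ, ← Nat.cast_smul_eq_nsmul 𝕜, Nat.cast_sub Fintype.card_pos, Nat.cast_one]
  intro a ha
  have ha0 : a ≠ 0 := (Finset.mem_erase.1 ha).1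
  have h4 := n1_u_n1 (Units.mk0 a ha0)
  rw [Units.val_mk0] at h4
  have h5 : ∀ p, S (D p) (S n1 v) = S n1 v := by
    intro p
    have h6 := n1_D (F := F) (p.2, p.1)
    rw [← S_apply, ← h6, S_apply, hD]
  rw [← S_apply, ← S_apply, h4, S_apply, S_apply, S_apply, pr_u, hv, h5]

/-- a projection in the middle -/
theorem pr_mid (hq : (Fintype.card F : 𝕜) ≠ 0) {g : Matrix.SpecialLinearGroup (Fin 3) F} {w : V}
    (h : ∀ a b c, pr S (S g (S (u a b c) w)) = pr S (S g w)) : pr S (S g (pr S w)) = pr S (S g w) := by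
  have h4 := pr_apply S w
  rw [h4, map_smul, map_smul, map_sum, map_sum]
  have h3 : ∀ a : F, pr S (S g (∑ p : F × F, S (u a 0 0) (S (u 0 p.1 p.2) w))) = ((Fintype.card (F × F) : ℕ) : 𝕜) •
      pr S (S g w) := by
    intro a
    rw [map_sum, map_sum, Finset.sum_congr rfl (g := fun _ => pr S (S g w)), Finset.sum_const, Finset.card_univ,
      Nat.cast_smul_eq_nsmul 𝕜]
    intro p _
    rw [← S_apply S (u a 0 0), u_mul, h]
  simp_rw [h3]
  rw [Finset.sum_const, Finset.card_univ, Fintype.card_prod, ← Nat.cast_smul_eq_nsmul 𝕜, smul_smul, smul_smul,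
    Nat.cast_mul, show ((Fintype.card F : 𝕜) ^ 3)⁻¹ * (Fintype.card F : 𝕜) * ((Fintype.card F : 𝕜) * (Fintype.card F : 𝕜)) =
      1 by field_simp, one_smul]

/-- `S n₁` in front -/
theorem pr_n1_mid (hq : (Fintype.card F : 𝕜) ≠ 0) {w : V} (h : ∀ a, S (u a 0 0) w = w) :
    pr S (S n1 (pr S w)) = pr S (S n1 w) := by
  refine pr_mid S hq fun a b c => ?_
  have h1 : u a b c = u 0 b c * u a 0 0 := by
    rw [u_mul]
    congr 1 <;> ring
  rw [h1, S_apply, h, ← S_apply, n1_u, S_apply, pr_u]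

/-- `S n₂` in front -/
theorem pr_n2_mid (hq : (Fintype.card F : 𝕜) ≠ 0) {w : V} (h : ∀ b, S (u 0 b 0) w = w) :
    pr S (S n2 (pr S w)) = pr S (S n2 w) := by
  refine pr_mid S hq fun a b c => ?_
  have h1 : u a b c = u a 0 (c - a * b) * u 0 b 0 := by
    rw [u_mul]
    congr 1 <;> ring
  rw [h1, S_apply, h, ← S_apply, n2_u, S_apply, pr_u]

theorem T1T2 (hq : (Fintype.card F : 𝕜) ≠ 0) {v : V} (hv : v ∈ VU S) :
    pr S (S n1 (pr S (S n2 v))) = pr S (S (n1 * n2) v) := by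
  rw [pr_n1_mid S hq, S_apply]
  intro a
  have h := n2_u (F := F) 0 a
  rw [neg_zero] at h
  rw [← S_apply, ← h, S_apply, hv]

theorem T2T1 (hq : (Fintype.card F : 𝕜) ≠ 0) {v : V} (hv : v ∈ VU S) :
    pr S (S n2 (pr S (S n1 v))) = pr S (S (n2 * n1) v) := by
  rw [pr_n2_mid S hq, S_apply]
  intro b
  exact fix_n1 S hv b 0

theorem T1T2T1 (hq : (Fintype.card F : 𝕜) ≠ 0) {v : V} (hv : v ∈ VU S) :
    pr S (S n1 (pr S (S n2 (pr S (S n1 v))))) = pr S (S (n1 * n2 * n1) v) := by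
  rw [T2T1 S hq hv, pr_n1_mid S hq, ← S_apply, mul_assoc]
  intro a
  have h := n2_u (F := F) 0 a
  rw [neg_zero] at h
  rw [S_apply, ← S_apply, ← h, S_apply, fix_n1 S hv]

/-! ### The characters of the diagonal torus on the fixed points of `U` -/

theorem D_pr {w : V} {χ : Fˣ × Fˣ → 𝕜} {g : Matrix.SpecialLinearGroup (Fin 3) F} (hq : (Fintype.card F : 𝕜) ≠ 0)
    (c : Fˣ × Fˣ → Fˣ × Fˣ) (hg : ∀ p, D p * g = g * D (c p)) (hw : ∀ p, S (D p) w = χ p • w) (p : Fˣ × Fˣ) :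
    S (D p) (pr S (S g w)) = χ (c p) • pr S (S g w) := by
  rw [← pr_D S hq, ← S_apply, hg, S_apply, hw, map_smul, map_smul]

theorem D_n1 (p : Fˣ × Fˣ) : D p * n1 = n1 * D (p.2, p.1) := (n1_D (p.2, p.1)).symm

theorem D_A (p : Fˣ × Fˣ) : D p * (n1 * n2) = n1 * n2 * D (p.2, (p.1 * p.2)⁻¹) := by
  rw [← mul_assoc, D_n1, mul_assoc, mul_assoc, n2_D]
  congr 3
  apply Prod.ext
  · rfl
  · show p.1 = (p.2 * (p.1 * p.2)⁻¹)⁻¹
    rw [_root_.mul_inv_rev, inv_inv, mul_assoc, mul_inv_cancel, mul_one]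

theorem D_n2 (p : Fˣ × Fˣ) : D p * n2 = n2 * D (p.1, (p.1 * p.2)⁻¹) := by
  rw [n2_D]
  congr 2
  apply Prod.ext
  · rfl
  · show p.2 = (p.1 * (p.1 * p.2)⁻¹)⁻¹
    rw [_root_.mul_inv_rev, inv_inv, mul_comm p.1 p.2, mul_assoc, mul_inv_cancel, mul_one]

theorem D_B (p : Fˣ × Fˣ) : D p * (n2 * n1) = n2 * n1 * D ((p.1 * p.2)⁻¹, p.1) := by
  rw [← mul_assoc, D_n2, mul_assoc, mul_assoc, n1_D]

theorem D_C (p : Fˣ × Fˣ) : D p * (n1 * n2 * n1) = n1 * n2 * n1 * D ((p.1 * p.2)⁻¹, p.2) := by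
  rw [← mul_assoc, D_A, mul_assoc, mul_assoc (n1 * n2), n1_D]

theorem eigen_aux (e : Basis (Fin 3) F E) [Fintype (Tor F E)] (h3 : finrank F E = 3) (hq : (Fintype.card F : 𝕜) ≠ 0)
    (hsum : ∀ v, ∑ t : Tor F E, S (psi e t) v = 0) {v : V} (hv : v ∈ VU S) (hv0 : v ≠ 0) {μ : Fˣ × Fˣ →* 𝕜}
    (hμ : ∀ p, S (D p) v = μ p • v) : (∀ p : Fˣ × Fˣ, μ (p.2, (p.1 * p.2)⁻¹) = μ p) ∨
      (∀ p : Fˣ × Fˣ, μ ((p.1 * p.2)⁻¹, p.1) = μ p) ∨ (∀ p : Fˣ × Fˣ, μ ((p.1 * p.2)⁻¹, p.2) = μ p) := by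
  classical
  by_contra hcon
  push Not at hcon
  obtain ⟨⟨pA, hA⟩, ⟨pB, hB⟩, ⟨pC, hC⟩⟩ := hcon
  set f : Fˣ × Fˣ → 𝕜 → Module.End 𝕜 V := fun p c => S (D p) - c • 1 with hf
  have hfa : ∀ p c w (k : 𝕜), S (D p) w = k • w → f p c w = (k - c) • w := by
    intro p c w k hw
    rw [hf]
    show S (D p) w - c • w = _
    rw [hw, sub_smul]
  set cA := μ (pA.2, (pA.1 * pA.2)⁻¹)
  set cB := μ ((pB.1 * pB.2)⁻¹, pB.1)
  set cC := μ ((pC.1 * pC.2)⁻¹, pC.2)
  have hP : ∀ (w : V) (χ : Fˣ × Fˣ → 𝕜), (∀ p, S (D p) w = χ p • w) →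
      f pA cA (f pB cB (f pC cC w)) = ((χ pC - cC) * (χ pB - cB) * (χ pA - cA)) • w := by
    intro w χ hw
    rw [hfa pC cC w _ (hw pC), map_smul, map_smul, hfa pB cB w _ (hw pB), map_smul, hfa pA cA w _ (hw pA), smul_smul,
      smul_smul, mul_assoc]
  have h1 := congrArg (pr S) (hsum v)
  rw [map_zero, map_sum, ← Finset.add_sum_erase _ _ (Finset.mem_univ (1 : Tor F E)), map_one, map_one,
    Module.End.one_apply, pr_of_mem S hq hv] at h1
  have h2 := congrArg (fun w => f pA cA (f pB cB (f pC cC w))) h1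
  simp only [map_add, map_sum, map_zero] at h2
  rw [hP v μ hμ, Finset.sum_eq_zero, add_zero] at h2
  · have h5 := (smul_eq_zero.1 h2).resolve_right hv0
    rcases mul_eq_zero.1 h5 with h6 | h6
    · rcases mul_eq_zero.1 h6 with h7 | h7
      · exact hC (sub_eq_zero.1 h7).symm
      · exact hB (sub_eq_zero.1 h7).symm
    · exact hA (sub_eq_zero.1 h6).symm
  · intro t ht
    have ht1 : t ≠ 1 := (Finset.mem_erase.1 ht).1
    by_cases h20 : (psi e t).1 2 0 = 0
    · -- type `A`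
      have h10 : (psi e t).1 1 0 ≠ 0 := fun h => regular_pt e h3 ht1 h h20
      obtain ⟨a, b, c, a', b', c', p, hp⟩ := cellA (psi e t) h20 h10 (regular_ln e h3 ht1 h20)
      rw [hp, S_apply, S_apply, S_apply, pr_u, hv, hμ, map_smul, map_smul, map_smul, map_smul, map_smul,
        hP _ _ (fun p => D_pr S hq (fun p => (p.2, (p.1 * p.2)⁻¹)) D_A hμ p)]
      show μ p • ((_ * _ * (cA - cA)) • _) = 0
      rw [sub_self, mul_zero, zero_smul, smul_zero]
    · by_cases hm : (psi e t).1 1 0 * (psi e t).1 2 1 - (psi e t).1 1 1 * (psi e t).1 2 0 = 0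
      · obtain ⟨a, b, c, a', b', c', p, hp⟩ := cellB (psi e t) h20 hm
        rw [hp, S_apply, S_apply, S_apply, pr_u, hv, hμ, map_smul, map_smul, map_smul, map_smul, map_smul,
          hP _ _ (fun p => D_pr S hq (fun p => ((p.1 * p.2)⁻¹, p.1)) D_B hμ p)]
        show μ p • ((_ * (cB - cB) * _) • _) = 0
        rw [sub_self, mul_zero, zero_mul, zero_smul, smul_zero]
      · obtain ⟨a, b, c, a', b', c', p, hp⟩ := cellC (psi e t) h20 hm
        rw [hp, S_apply, S_apply, S_apply, pr_u, hv, hμ, map_smul, map_smul, map_smul, map_smul, map_smul,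
          hP _ _ (fun p => D_pr S hq (fun p => ((p.1 * p.2)⁻¹, p.2)) D_C hμ p)]
        show μ p • (((cC - cC) * _ * _) • _) = 0
        rw [sub_self, zero_mul, zero_mul, zero_smul, smul_zero]

theorem exists_cube_unit (x : Fˣ) : ∃ y : Fˣ, y ^ 3 = x := by
  obtain ⟨y, hy⟩ := exists_cube (x : F)
  have hy0 : y ≠ 0 := by
    rintro rfl
    apply x.ne_zero
    rw [← hy]; ring
  exact ⟨Units.mk0 y hy0, Units.ext hy⟩

theorem eigen_one (e : Basis (Fin 3) F E) [Fintype (Tor F E)] (h3 : finrank F E = 3) (hq : (Fintype.card F : 𝕜) ≠ 0)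
    (hsum : ∀ v, ∑ t : Tor F E, S (psi e t) v = 0) {v : V} (hv : v ∈ VU S) (hv0 : v ≠ 0) {μ : Fˣ × Fˣ →* 𝕜}
    (hμ : ∀ p, S (D p) v = μ p • v) (x : Fˣ) : μ (x, 1) = 1 := by
  have hmul : ∀ a b c d : Fˣ, μ (a * c, b * d) = μ (a, b) * μ (c, d) := fun a b c d => map_mul μ (a, b) (c, d)
  have hone : μ (1, 1) = 1 := map_one μ
  rcases eigen_aux S e h3 hq hsum hv hv0 hμ with h | h | h
  · -- rotation
    have h4 : ∀ x : Fˣ, μ (x⁻¹, 1) = μ (x, x⁻¹) := by
      intro x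
      have := h (x, x⁻¹)
      simp only [mul_inv_cancel, inv_one] at this
      exact this
    have h5 : ∀ x : Fˣ, μ (1, x) = μ (x⁻¹, 1) := by
      intro x
      have := h (x⁻¹, 1)
      simp only [mul_one, inv_inv] at this
      exact this
    obtain ⟨y, rfl⟩ := exists_cube_unit x
    have h6 : μ (y⁻¹, 1) = μ (y, 1) * μ (y, 1) := by
      rw [h4]
      have h7 := hmul y 1 1 y⁻¹
      rw [mul_one, one_mul] at h7
      rw [h7, h5, inv_inv]
    have h8 := hmul y 1 y⁻¹ 1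
    rw [mul_inv_cancel, mul_one, hone, h6] at h8
    have h9 : (y ^ 3, (1 : Fˣ)) = (y, 1) * (y, 1) * (y, 1) := by
      apply Prod.ext
      · show y ^ 3 = y * y * y
        rw [pow_succ, pow_two]
      · show (1 : Fˣ) = 1 * 1 * 1
        rw [mul_one, mul_one]
    rw [h9, map_mul, map_mul, mul_assoc, ← h8]
  · have h4 : ∀ x : Fˣ, μ (x⁻¹, x) = μ (x, 1) := by
      intro x
      have := h (x, 1)
      simp only [mul_one] at this
      exact this
    have h5 : ∀ x : Fˣ, μ (x⁻¹, 1) = μ (1, x) := by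
      intro x
      have := h (1, x)
      simp only [one_mul] at this
      exact this
    obtain ⟨y, rfl⟩ := exists_cube_unit x
    have h6 : μ (y, 1) = μ (y⁻¹, 1) * μ (y⁻¹, 1) := by
      rw [← h4]
      have h7 := hmul y⁻¹ 1 1 y
      rw [mul_one, one_mul] at h7
      rw [h7, ← h5]
    have h8 := hmul y 1 y⁻¹ 1
    rw [mul_inv_cancel, mul_one, hone] at h8
    have h9 : μ (y⁻¹, 1) * μ (y⁻¹, 1) * μ (y⁻¹, 1) = 1 := by
      rw [← h6, ← h8]
    have h10 : (y ^ 3, (1 : Fˣ)) = (y, 1) * (y, 1) * (y, 1) := by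
      apply Prod.ext
      · show y ^ 3 = y * y * y
        rw [pow_succ, pow_two]
      · show (1 : Fˣ) = 1 * 1 * 1
        rw [mul_one, mul_one]
    rw [h10, map_mul, map_mul]
    have h11 : μ (y, 1) * μ (y, 1) * μ (y, 1) * (μ (y⁻¹, 1) * μ (y⁻¹, 1) * μ (y⁻¹, 1)) = 1 := by
      have e1 : μ (y, 1) * μ (y, 1) * μ (y, 1) * (μ (y⁻¹, 1) * μ (y⁻¹, 1) * μ (y⁻¹, 1)) =
        (μ (y, 1) * μ (y⁻¹, 1)) * (μ (y, 1) * μ (y⁻¹, 1)) * (μ (y, 1) * μ (y⁻¹, 1)) := by ring
      rw [e1, ← h8, mul_one, mul_one]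
    rwa [h9, mul_one] at h11
  · have h4 := h (x, x⁻¹)
    simp only [mul_inv_cancel, inv_one] at h4
    have h5 := hmul 1 x⁻¹ 1 x
    rw [mul_one, inv_mul_cancel, hone] at h5
    have h6 := hmul x x⁻¹ 1 x
    rw [mul_one, inv_mul_cancel] at h6
    rw [h6, ← h4, ← h5]

/-- **The characters of the diagonal torus are trivial.** -/
theorem eigen (e : Basis (Fin 3) F E) [Fintype (Tor F E)] (h3 : finrank F E = 3) (hq : (Fintype.card F : 𝕜) ≠ 0)
    (hsum : ∀ v, ∑ t : Tor F E, S (psi e t) v = 0) {v : V} (hv : v ∈ VU S) (hv0 : v ≠ 0) {μ : Fˣ × Fˣ →* 𝕜}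
    (hμ : ∀ p, S (D p) v = μ p • v) (p : Fˣ × Fˣ) : S (D p) v = v := by
  have h1 := eigen_one S e h3 hq hsum hv hv0 hμ
  -- the reflected character
  let μ' : Fˣ × Fˣ →* 𝕜 := μ.comp (MulEquiv.prodComm (M := Fˣ) (N := Fˣ)).toMonoidHom
  have h2 := eigen_one S e h3 hq hsum (v := pr S (S n1 v)) (pr_mem S _) (fun h => hv0 (T1_inj S hq hv h)) (μ := μ')
    (fun p => D_pr S hq (fun p => (p.2, p.1)) D_n1 hμ p)
  rw [hμ]
  have h4 : p = (p.1, 1) * (1, p.2) := by
    apply Prod.ext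
    · show p.1 = p.1 * 1
      rw [mul_one]
    · show p.2 = 1 * p.2
      rw [one_mul]
  rw [h4, map_mul, h1]
  have h5 : μ (1, p.2) = 1 := h2 p.2
  rw [h5, one_mul, one_smul]

/-- **Diagonal elements of order prime to the characteristic are trivial on the fixed points of `U`.** -/
theorem diag_trivial [IsAlgClosed 𝕜] [FiniteDimensional 𝕜 V] (e : Basis (Fin 3) F E) [Fintype (Tor F E)]
    (h3 : finrank F E = 3) (hq : (Fintype.card F : 𝕜) ≠ 0)
    (hsum : ∀ v, ∑ t : Tor F E, S (psi e t) v = 0) {p : Fˣ × Fˣ} {m : ℕ} (hp : p ^ m = 1) (hm : (m : 𝕜) ≠ 0)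
    {v : V} (hv : v ∈ VU S) : S (D p) v = v := by
  by_contra hne
  set f := S (D p) with hf
  have hfm : ∀ v : V, (f ^ m) v = v := by
    intro v
    rw [hf, ← map_pow, ← map_pow, hp, map_one, S_one]
  -- the kernel of `∑ f ^ i`
  let M : Submodule 𝕜 V := VU S ⊓ LinearMap.ker (∑ i ∈ Finset.range m, f ^ i)
  have hMmem : ∀ w, w ∈ M ↔ w ∈ VU S ∧ ∑ i ∈ Finset.range m, (f ^ i) w = 0 := by
    intro w
    rw [Submodule.mem_inf, LinearMap.mem_ker, LinearMap.sum_apply]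
  have hM0 : M ≠ ⊥ := by
    intro h
    apply hne
    have h1 : f v - v ∈ M := by
      rw [hMmem]
      refine ⟨(VU S).sub_mem (D_mem S p hv) hv, ?_⟩
      simp_rw [map_sub]
      rw [Finset.sum_sub_distrib]
      have h4 : ∀ i, (f ^ i) (f v) = (f ^ (i + 1)) v := fun i => by rw [pow_succ]; rfl
      simp_rw [h4]
      have h5 := Finset.sum_range_succ' (fun i => (f ^ i) v) m
      rw [Finset.sum_range_succ, hfm, pow_zero] at h5
      rw [sub_eq_zero]
      exact (add_right_cancel h5).symm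
    rw [h, Submodule.mem_bot] at h1
    exact sub_eq_zero.1 h1
  obtain ⟨w, hwM, hw0, μ, hμ⟩ := exists_eigen (S.comp (D : Fˣ × Fˣ →* _)) hM0 (fun p' w hw => by
    rw [hMmem] at hw ⊢
    refine ⟨D_mem S p' hw.1, ?_⟩
    have hcomm : ∀ i, (f ^ i) (S (D p') w) = S (D p') ((f ^ i) w) := by
      intro i
      rw [hf, ← map_pow, ← map_pow, ← S_apply, ← S_apply, ← map_mul, ← map_mul, mul_comm]
    show ∑ i ∈ Finset.range m, (f ^ i) (S (D p') w) = 0
    simp_rw [hcomm]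
    rw [← map_sum, hw.2, map_zero])
  rw [hMmem] at hwM
  have h6 : f w = w := eigen S e h3 hq hsum hwM.1 hw0 (μ := μ) hμ p
  have h7 : ∀ i, (f ^ i) w = w := by
    intro i
    induction i with
    | zero => rfl
    | succ i ih => rw [pow_succ, Module.End.mul_apply, h6, ih]
  have h8 := hwM.2
  simp_rw [h7] at h8
  rw [Finset.sum_const, Finset.card_range, ← Nat.cast_smul_eq_nsmul 𝕜] at h8
  exact hw0 ((smul_eq_zero.1 h8).resolve_left hm)

end Mod

end Cfsg.Agent.H420.PG.G2
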