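import Mathlib
import Cfsg.Agent.H420.PG.G2Modb
import Cfsg.Agent.H161.G2Elems

/-!
# `G₂(q)`, `q` a power of three, in cross characteristic: short root elements (helper420)

`AutO F` the automorphism group of the split octonions, `slA : SL₃(F) → AutO F`, `x1`, `x2`, `x3` the short root groups
of the weights `ε₁`, `ε₂`, `-ε₃`, `na` the reflection in `ε₂`.
-/

set_option autoImplicit false
set_option linter.unusedSectionVars false
set_option linter.unusedSimpArgs false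

namespace Cfsg.Agent.H420.PG.G2

open Matrix Module Cfsg.Agent.H161.Oct

variable {F : Type*} [Field F]

/-- `SL₃(F) → AutO F` -/
noncomputable def slA : Matrix.SpecialLinearGroup (Fin 3) F →* AutO F where
  toFun P := ⟨slM F P, slM_mem P⟩
  map_one' := Subtype.ext (map_one (slM F))
  map_mul' P Q := Subtype.ext (map_mul (slM F) P Q)

/-- `τ_p` -/
def ta (p : Fin 3 → F) : AutO F := ⟨tau p, tau_mem p⟩

/-- the exchange automorphism -/
def sw : AutO F := ⟨swp F, swp_mem⟩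

theorem ext_app {f g : AutO F} (h : ∀ x, f.1 x = g.1 x) : f = g := Subtype.ext (LinearEquiv.ext h)

theorem mul_app (f g : AutO F) (x : Cfsg.Agent.H161.Oct.V F) : (f * g).1 x = f.1 (g.1 x) := rfl
theorem slA_app (P : Matrix.SpecialLinearGroup (Fin 3) F) (x : Cfsg.Agent.H161.Oct.V F) : (slA P).1 x = slF P.1 x := rfl
theorem ta_app (p : Fin 3 → F) (x : Cfsg.Agent.H161.Oct.V F) : (ta p).1 x = tauF p x := rfl
theorem sw_app (x : Cfsg.Agent.H161.Oct.V F) : (sw : AutO F).1 x = swpF x := rfl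

theorem sw_sw : (sw : AutO F) * sw = 1 := by
  apply ext_app
  intro x
  rw [mul_app, sw_app, sw_app]
  apply ext8 <;> simp only [swpF0, swpF1, swpF2, swpF3, swpF4, swpF5, swpF6, swpF7, neg_neg] <;> rfl

theorem ta_add (p : Fin 3 → F) (a b : F) : ta (a • p) * ta (b • p) = ta ((a + b) • p) := by
  apply ext_app
  intro x
  rw [mul_app, ta_app, ta_app, ta_app, tau_tau]

/-- the short root group of `ε₁` -/
def x1 (s : F) : AutO F := ta ![s, 0, 0]

/-- the short root group of `ε₂` -/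
def x2 (s : F) : AutO F := ta ![0, s, 0]

/-- the short root group of `-ε₃` -/
def x3 (s : F) : AutO F := sw * ta ![0, 0, s] * sw

/-- the short root group of `-ε₂` -/
def y2 (s : F) : AutO F := sw * ta ![0, s, 0] * sw

theorem x1_eq (s : F) : x1 s = ta (s • ![1, 0, 0]) := by
  rw [x1]; congr 1; ext i; fin_cases i <;> simp

theorem x2_eq (s : F) : x2 s = ta (s • ![0, 1, 0]) := by
  rw [x2]; congr 1; ext i; fin_cases i <;> simp

theorem x3_eq (s : F) : x3 s = sw * ta (s • ![0, 0, 1]) * sw := by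
  rw [x3]; congr 3; ext i; fin_cases i <;> simp

theorem x1_add (s t : F) : x1 s * x1 t = x1 (s + t) := by
  rw [x1_eq, x1_eq, x1_eq, ta_add]

theorem x2_add (s t : F) : x2 s * x2 t = x2 (s + t) := by
  rw [x2_eq, x2_eq, x2_eq, ta_add]

theorem x3_add (s t : F) : x3 s * x3 t = x3 (s + t) := by
  rw [x3_eq, x3_eq, x3_eq, ← ta_add]
  generalize ta (s • ![0, 0, 1] : Fin 3 → F) = A
  generalize ta (t • ![0, 0, 1] : Fin 3 → F) = B
  rw [show sw * A * sw * (sw * B * sw) = sw * A * (sw * sw) * B * sw by simp only [mul_assoc], sw_sw, mul_one, mul_assoc sw A]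

theorem ta_zero : ta (0 : Fin 3 → F) = 1 := by
  apply ext_app
  intro x
  rw [ta_app, tau_zero]
  rfl

theorem x2_zero : x2 (0 : F) = 1 := by
  rw [x2_eq, zero_smul, ta_zero]

/-- conjugation of `τ_p` by `SL₃` -/
theorem slA_ta (P : Matrix.SpecialLinearGroup (Fin 3) F) (p : Fin 3 → F) :
    slA P * ta p = ta (P.1 *ᵥ p) * slA P := by
  have hd := det_eq P
  apply ext_app
  intro x
  rw [mul_app, mul_app, slA_app, slA_app, ta_app, ta_app]
  have h0 : (P.1 *ᵥ p) 0 = P.1 0 0 * p 0 + P.1 0 1 * p 1 + P.1 0 2 * p 2 := by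
    rw [Matrix.mulVec, dotProduct, Fin.sum_univ_three]
  have h1 : (P.1 *ᵥ p) 1 = P.1 1 0 * p 0 + P.1 1 1 * p 1 + P.1 1 2 * p 2 := by
    rw [Matrix.mulVec, dotProduct, Fin.sum_univ_three]
  have h2 : (P.1 *ᵥ p) 2 = P.1 2 0 * p 0 + P.1 2 1 * p 1 + P.1 2 2 * p 2 := by
    rw [Matrix.mulVec, dotProduct, Fin.sum_univ_three]
  generalize (P.1 *ᵥ p) = p' at h0 h1 h2
  set m00 := P.1 0 0
  set m01 := P.1 0 1
  set m02 := P.1 0 2
  set m10 := P.1 1 0
  set m11 := P.1 1 1
  set m12 := P.1 1 2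
  set m20 := P.1 2 0
  set m21 := P.1 2 1
  set m22 := P.1 2 2
  have hdot : p' 0 * ((m11 * m22 - m12 * m21) * x 4 + (m12 * m20 - m10 * m22) * x 5 + (m10 * m21 - m11 * m20) * x 6) +
      p' 1 * ((m21 * m02 - m22 * m01) * x 4 + (m22 * m00 - m20 * m02) * x 5 + (m20 * m01 - m21 * m00) * x 6) +
      p' 2 * ((m01 * m12 - m02 * m11) * x 4 + (m02 * m10 - m00 * m12) * x 5 + (m00 * m11 - m01 * m10) * x 6) =
      p 0 * x 4 + p 1 * x 5 + p 2 * x 6 := by
    rw [h0, h1, h2]
    linear_combination (p 0 * x 4 + p 1 * x 5 + p 2 * x 6) * hd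
  apply ext8
  · simp only [slF0, slF1, slF2, slF3, slF4, slF5, slF6, slF7, tau0, tau1, tau2, tau3, tau4, tau5, tau6, tau7]
    rw [hdot]
  · simp only [slF0, slF1, slF2, slF3, slF4, slF5, slF6, slF7, tau0, tau1, tau2, tau3, tau4, tau5, tau6, tau7]
    rw [hdot, h0]
    ring
  · simp only [slF0, slF1, slF2, slF3, slF4, slF5, slF6, slF7, tau0, tau1, tau2, tau3, tau4, tau5, tau6, tau7]
    rw [hdot, h1]
    ring
  · simp only [slF0, slF1, slF2, slF3, slF4, slF5, slF6, slF7, tau0, tau1, tau2, tau3, tau4, tau5, tau6, tau7]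
    rw [hdot, h2]
    ring
  · simp only [slF0, slF1, slF2, slF3, slF4, slF5, slF6, slF7, tau0, tau1, tau2, tau3, tau4, tau5, tau6, tau7]
    rw [h1, h2]
    ring
  · simp only [slF0, slF1, slF2, slF3, slF4, slF5, slF6, slF7, tau0, tau1, tau2, tau3, tau4, tau5, tau6, tau7]
    rw [h0, h2]
    ring
  · simp only [slF0, slF1, slF2, slF3, slF4, slF5, slF6, slF7, tau0, tau1, tau2, tau3, tau4, tau5, tau6, tau7]
    rw [h0, h1]
    ring
  · simp only [slF0, slF1, slF2, slF3, slF4, slF5, slF6, slF7, tau0, tau1, tau2, tau3, tau4, tau5, tau6, tau7]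
    rw [hdot]

theorem D_val (p : Fˣ × Fˣ) : (D p).1 = !![(p.1 : F), 0, 0; 0, p.2, 0; 0, 0, ((p.1 * p.2)⁻¹ : Fˣ)] := rfl

theorem u_x1 (a b c s : F) : slA (u a b c) * x1 s = x1 s * slA (u a b c) := by
  rw [x1, slA_ta]
  congr 2
  ext i
  fin_cases i <;> simp [u, Matrix.mulVec, dotProduct, Fin.sum_univ_succ]

theorem u_x2 (b c s : F) : slA (u 0 b c) * x2 s = x2 s * slA (u 0 b c) := by
  rw [x2, slA_ta]
  congr 2
  ext i
  fin_cases i <;> simp [u, Matrix.mulVec, dotProduct, Fin.sum_univ_succ]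

theorem D_x1 (p : Fˣ × Fˣ) (s : F) : slA (D p) * x1 s = x1 (p.1 * s) * slA (D p) := by
  rw [x1, slA_ta, D_val]
  congr 2
  ext i
  fin_cases i <;> simp [Matrix.mulVec, dotProduct, Fin.sum_univ_succ]

theorem n1_x1 (s : F) : slA n1 * x1 s = x2 (-s) * slA n1 := by
  rw [x1, x2, slA_ta]
  congr 2
  ext i
  fin_cases i <;> simp [n1, Matrix.mulVec, dotProduct, Fin.sum_univ_succ]

/-- the inverse transpose of `u a b c` -/
def lt (a b c : F) : Matrix.SpecialLinearGroup (Fin 3) F :=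
  ⟨!![1, 0, 0; -a, 1, 0; a * b - c, -b, 1], by rw [det_fin_three]; simp⟩

theorem sw_u (a b c : F) : sw * slA (u a b c) = slA (lt a b c) * sw := by
  apply ext_app
  intro x
  rw [mul_app, mul_app, slA_app, slA_app, sw_app, sw_app]
  apply ext8 <;> simp [slF0, slF1, slF2, slF3, slF4, slF5, slF6, slF7, swpF0, swpF1, swpF2, swpF3, swpF4, swpF5, swpF6,
    swpF7, u, lt] <;> ring

theorem sw_lt (a b c : F) : sw * slA (lt a b c) = slA (u a b c) * sw := by
  apply ext_app
  intro x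
  rw [mul_app, mul_app, slA_app, slA_app, sw_app, sw_app]
  apply ext8 <;> simp [slF0, slF1, slF2, slF3, slF4, slF5, slF6, slF7, swpF0, swpF1, swpF2, swpF3, swpF4, swpF5, swpF6,
    swpF7, u, lt] <;> ring

theorem sw_D (p : Fˣ × Fˣ) : sw * slA (D p) = slA (D p⁻¹) * sw := by
  obtain ⟨a, b⟩ := p
  have ha := a.ne_zero
  have hb := b.ne_zero
  apply ext_app
  intro x
  rw [mul_app, mul_app, slA_app, slA_app, sw_app, sw_app, D_val, D_val]
  apply ext8 <;> simp [slF0, slF1, slF2, slF3, slF4, slF5, slF6, slF7, swpF0, swpF1, swpF2, swpF3, swpF4, swpF5, swpF6,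
    swpF7] <;> field_simp <;> simp

theorem u_x3 (a b c s : F) : slA (u a b c) * x3 s = x3 s * slA (u a b c) := by
  have h1 : slA (lt a b c) * ta ![0, 0, s] = ta ![0, 0, s] * slA (lt a b c) := by
    rw [slA_ta]
    congr 2
    ext i
    fin_cases i <;> simp [lt, Matrix.mulVec, dotProduct, Fin.sum_univ_succ]
  rw [x3, ← mul_assoc, ← mul_assoc, ← sw_lt, mul_assoc sw, h1, mul_assoc (sw * ta ![0, 0, s]), sw_u, ← mul_assoc, ← mul_assoc]

theorem D_x3 (p : Fˣ × Fˣ) (s : F) : slA (D p) * x3 s = x3 (p.1 * p.2 * s) * slA (D p) := by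
  have h1 : slA (D p⁻¹) * ta ![0, 0, s] = ta ![0, 0, p.1 * p.2 * s] * slA (D p⁻¹) := by
    rw [slA_ta, D_val]
    congr 2
    ext i
    fin_cases i <;> simp [Matrix.mulVec, dotProduct, Fin.sum_univ_succ, mul_comm]
  have h2 := sw_D p⁻¹
  rw [inv_inv] at h2
  rw [x3, x3, ← mul_assoc, ← mul_assoc, ← h2, mul_assoc sw, h1, mul_assoc (sw * ta ![0, 0, p.1 * p.2 * s]), sw_D, ← mul_assoc,
    ← mul_assoc]

/-- **The commutator of `x₁₂` and the short root group of `ε₂`.** -/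
theorem u_comm_x2 (t s : F) : slA (u t 0 0) * x2 s =
    x2 s * (slA (u t 0 0) * x1 (s * t) * x3 (-(s ^ 2 * t)) * slA (u 0 (-(s ^ 3 * t)) (-(s ^ 3 * t ^ 2)))) := by
  apply ext_app
  intro x
  rw [x1, x2, x3]
  simp only [mul_app, slA_app, ta_app, sw_app]
  apply ext8 <;> simp [slF0, slF1, slF2, slF3, slF4, slF5, slF6, slF7, swpF0, swpF1, swpF2, swpF3, swpF4, swpF5, swpF6,
    swpF7, tau0, tau1, tau2, tau3, tau4, tau5, tau6, tau7, u] <;> ring

/-! ### The reflection in `ε₂` -/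

/-- the long reflection -/
def P0 : Matrix.SpecialLinearGroup (Fin 3) F := ⟨!![0, 0, 1; 0, 1, 0; -1, 0, 0], by rw [det_fin_three]; simp⟩

/-- the reflection in `ε₂` -/
noncomputable def na : AutO F := sw * slA P0

theorem na_app (x : Cfsg.Agent.H161.Oct.V F) : (na : AutO F).1 x = swpF (slF P0.1 x) := rfl

theorem na_eq : (na : AutO F) = x2 1 * y2 1 * x2 1 := by
  apply ext_app
  intro x
  rw [x2, y2]
  simp only [mul_app, slA_app, ta_app, sw_app, na_app]
  apply ext8 <;> simp [slF0, slF1, slF2, slF3, slF4, slF5, slF6, slF7, swpF0, swpF1, swpF2, swpF3, swpF4, swpF5, swpF6,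
    swpF7, tau0, tau1, tau2, tau3, tau4, tau5, tau6, tau7, P0] <;> ring

theorem na_u (a b c : F) : na * slA (u a b c) = slA (u (-b) a (c - a * b)) * na := by
  apply ext_app
  intro x
  simp only [mul_app, slA_app, ta_app, sw_app, na_app]
  apply ext8 <;> simp [slF0, slF1, slF2, slF3, slF4, slF5, slF6, slF7, swpF0, swpF1, swpF2, swpF3, swpF4, swpF5, swpF6,
    swpF7, P0, u] <;> ring

theorem na_D (p : Fˣ × Fˣ) : na * slA (D p) = slA (D (p.1 * p.2, p.2⁻¹)) * na := by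
  obtain ⟨a, b⟩ := p
  have ha := a.ne_zero
  have hb := b.ne_zero
  apply ext_app
  intro x
  simp only [mul_app, slA_app, ta_app, sw_app, na_app, D_val]
  apply ext8 <;> simp [slF0, slF1, slF2, slF3, slF4, slF5, slF6, slF7, swpF0, swpF1, swpF2, swpF3, swpF4, swpF5, swpF6,
    swpF7, P0]

theorem na_n1 : (na : AutO F) * slA n1 = slA n2 * na := by
  apply ext_app
  intro x
  simp only [mul_app, slA_app, ta_app, sw_app, na_app]
  apply ext8 <;> simp [slF0, slF1, slF2, slF3, slF4, slF5, slF6, slF7, swpF0, swpF1, swpF2, swpF3, swpF4, swpF5, swpF6,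
    swpF7, P0, n1, n2]

theorem na_x2 (s : F) : na * x2 s = y2 s * na := by
  apply ext_app
  intro x
  rw [x2, y2]
  simp only [mul_app, slA_app, ta_app, sw_app, na_app]
  apply ext8 <;> simp [slF0, slF1, slF2, slF3, slF4, slF5, slF6, slF7, swpF0, swpF1, swpF2, swpF3, swpF4, swpF5, swpF6,
    swpF7, tau0, tau1, tau2, tau3, tau4, tau5, tau6, tau7, P0] <;> ring

end Cfsg.Agent.H420.PG.G2
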