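import Mathlib
import Cfsg.Agent.H420.PG.G2Oct

/-!
# `G₂(q)`, `q` a power of three, in cross characteristic: the contradiction (helper420)
-/

set_option autoImplicit false
set_option linter.unusedSectionVars false

namespace Cfsg.Agent.H420.PG.G2

open Matrix Module Cfsg.Agent.H161.Oct

section Core

variable {F E 𝕜 W : Type*} [Field F] [Fintype F] [CharP F 3] [Field E] [Fintype E] [Algebra F E] [Field 𝕜]
  [AddCommGroup W] [Module 𝕜 W] (ρ : AutO F →* Module.End 𝕜 W)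

theorem ap (g h : AutO F) (v : W) : ρ (g * h) v = ρ g (ρ h v) := by
  rw [map_mul]; rfl

theorem ap_inv (g : AutO F) (v : W) : ρ g⁻¹ (ρ g v) = v := by
  rw [← ap, inv_mul_cancel, map_one]; rfl

theorem ap_inv' (g : AutO F) (v : W) : ρ g (ρ g⁻¹ v) = v := by
  rw [← ap, mul_inv_cancel, map_one]; rfl

/-- the restriction to `SL₃` -/
noncomputable def SS : Matrix.SpecialLinearGroup (Fin 3) F →* Module.End 𝕜 W := ρ.comp slA

theorem SS_apply (g : Matrix.SpecialLinearGroup (Fin 3) F) (v : W) : SS ρ g v = ρ (slA g) v := rfl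

variable [FiniteDimensional 𝕜 W] [IsAlgClosed 𝕜]

/-- **The contradiction.** -/
theorem core [Nontrivial W] (e : Basis (Fin 3) F E) [Fintype (Tor F E)] (h3 : finrank F E = 3)
    (h0 : e 0 = 1) (h1 : phi F E (e 1) = e 0 + e 1) (h2 : phi F E (e 2) = e 1 + e 2)
    (hq : (Fintype.card F : 𝕜) ≠ 0) (hT : ((Fintype.card F ^ 2 + Fintype.card F + 1 : ℕ) : 𝕜) ≠ 0)
    (hsum : ∀ v, ∑ t : Tor F E, SS ρ (psi e t) v = 0)
    (hd : ∃ x : Fˣ, x ≠ 1 ∧ ∃ m : ℕ, x ^ m = 1 ∧ (m : 𝕜) ≠ 0) : False := by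
  classical
  set S := SS ρ with hS
  have hSa : ∀ g v, S g v = ρ (slA g) v := fun g v => rfl
  -- fixed points of `U`
  have hfr := frob S e h3 h0 h1 h2 hT hsum
  have hR : ∃ v : W, v ≠ 0 ∧ ∀ a c, S (u a 0 c) v = v := by
    rcases exists_fix_R S hq hfr with h | ⟨v, hv0, hv⟩
    · exact h
    · refine ⟨ρ na v, fun h => hv0 ?_, fun a c => ?_⟩
      · rw [← ap_inv ρ na v, h, map_zero]
      · have h4 := na_u (F := F) 0 (-a) c
        rw [neg_neg, zero_mul, sub_zero] at h4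
        rw [hSa, ← ap, ← h4, ap, ← hSa, hv]
  obtain ⟨v0, hv00, hv0⟩ := exists_fix_U S e h3 hq hsum hR
  have hv0m : v0 ∈ VU S := hv0
  -- a diagonal element
  obtain ⟨x, hx1, m, hxm, hm⟩ := hd
  have hD : ∀ v ∈ VU S, S (D (x, 1)) v = v := by
    intro v hv
    refine diag_trivial S e h3 hq hsum (m := m) ?_ hm hv
    apply Prod.ext
    · exact hxm
    · exact one_pow m
  have hx0 : (x : F) - 1 ≠ 0 := by
    intro h
    apply hx1
    exact Units.ext (sub_eq_zero.1 h)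
  -- `x₁(s)` is trivial on `V^U`
  have hx1m : ∀ (s : F) (v : W), v ∈ VU S → ρ (x1 s) v ∈ VU S := by
    intro s v hv a b c
    rw [hSa, ← ap, u_x1, ap, ← hSa, hv]
  have hx1t : ∀ (s : F) (v : W), v ∈ VU S → ρ (x1 s) v = v := by
    intro s v hv
    set s' := s / ((x : F) - 1) with hs'
    have e1 : ρ (x1 ((x : F) * s')) v = ρ (x1 s') v := by
      have h5 := hD _ (hx1m s' v hv)
      rw [hSa, ← ap, D_x1, ap, ← hSa, hD v hv] at h5
      exact h5
    have e2 : (x : F) * s' = s' + s := by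
      rw [hs']
      field_simp
      ring
    rw [e2, ← x1_add, ap] at e1
    have e3 := congrArg (ρ (x1 s')⁻¹) e1
    rw [ap_inv, ap_inv] at e3
    exact e3
  have hx3m : ∀ (s : F) (v : W), v ∈ VU S → ρ (x3 s) v ∈ VU S := by
    intro s v hv a b c
    rw [hSa, ← ap, u_x3, ap, ← hSa, hv]
  have hx3t : ∀ (s : F) (v : W), v ∈ VU S → ρ (x3 s) v = v := by
    intro s v hv
    set s' := s / ((x : F) - 1) with hs'
    have e1 : ρ (x3 ((x : F) * s')) v = ρ (x3 s') v := by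
      have h5 := hD _ (hx3m s' v hv)
      rw [hSa, ← ap, D_x3, ap, ← hSa, hD v hv] at h5
      rw [← h5]
      congr 3
      show (x : F) * s' = (x : F) * ((1 : Fˣ) : F) * s'
      rw [Units.val_one, mul_one]
    have e2 : (x : F) * s' = s' + s := by
      rw [hs']
      field_simp
      ring
    rw [e2, ← x3_add, ap] at e1
    have e3 := congrArg (ρ (x3 s')⁻¹) e1
    rw [ap_inv, ap_inv] at e3
    exact e3
  -- `x₂(s)` stabilises `V^U`
  have hu : ∀ a b c : F, u a b c = u a 0 0 * u 0 b (c - a * b) := by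
    intro a b c
    rw [u_mul]
    congr 1 <;> ring
  have hx2m : ∀ (s : F) (v : W), v ∈ VU S → ρ (x2 s) v ∈ VU S := by
    intro s v hv a b c
    have e1 : ρ (slA (u 0 b (c - a * b))) (ρ (x2 s) v) = ρ (x2 s) v := by
      rw [← ap, u_x2, ap, ← hSa, hv]
    rw [hu, S_apply, hSa, hSa, e1, ← ap, u_comm_x2, ap, ap, ← hSa, hv, ap, hx3t _ _ hv, ap, hx1t _ _ hv, ← hSa, hv]
  have hx2i : ∀ s : F, (x2 s)⁻¹ = x2 (-s) := by
    intro s
    rw [inv_eq_iff_mul_eq_one, x2_add, add_neg_cancel, x2_zero]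
  -- the projection commutes with `x₁`, `x₃`, `x₂`
  have hp1 : ∀ (s : F) (v : W), pr S (ρ (x1 s) v) = pr S v := by
    intro s v
    rw [pr_comm S (f := ρ (x1 s)) (g := ρ (x1 s)⁻¹) (fun v => ap_inv ρ _ v) hq (hx1m s) (fun a b c v => by
      rw [hSa, ← ap, ← u_x1, ap, ← hSa, pr_u, ap_inv'])]
    exact hx1t s _ (pr_mem S v)
  have hp3 : ∀ (s : F) (v : W), pr S (ρ (x3 s) v) = pr S v := by
    intro s v
    rw [pr_comm S (f := ρ (x3 s)) (g := ρ (x3 s)⁻¹) (fun v => ap_inv ρ _ v) hq (hx3m s) (fun a b c v => by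
      rw [hSa, ← ap, ← u_x3, ap, ← hSa, pr_u, ap_inv'])]
    exact hx3t s _ (pr_mem S v)
  have hp2 : ∀ (s : F) (v : W), pr S (ρ (x2 s) v) = ρ (x2 s) (pr S v) := by
    intro s v
    refine pr_comm S (f := ρ (x2 s)) (g := ρ (x2 s)⁻¹) (fun v => ap_inv ρ _ v) hq (hx2m s) (fun a b c v => ?_) v
    have e1 : x2 s * slA (u a 0 0) = slA (u a 0 0) * x1 (-s * a) * x3 (-((-s) ^ 2 * a)) *
        slA (u 0 (-((-s) ^ 3 * a)) (-((-s) ^ 3 * a ^ 2))) * x2 s := by
      have h5 := u_comm_x2 a (-s)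
      rw [← mul_inv_eq_iff_eq_mul, hx2i, mul_assoc, h5, ← mul_assoc, x2_add, add_neg_cancel, x2_zero, one_mul]
    rw [hu, S_apply, hSa, hSa, ← ap, e1, ap, ap, ← hSa, ap, ap, hSa, ← hSa, pr_u, hp1, hp3, ← hSa, pr_u, ← ap, ← u_x2, ap,
      ← hSa, pr_u, ap_inv']
  -- `T v`
  have hT1 : ∀ v ∈ VU S, ∀ s, ρ (x2 s) (pr S (S n1 v)) = pr S (S n1 v) := by
    intro v hv s
    rw [← hp2, hSa, ← ap]
    have e1 : x2 s * slA n1 = slA n1 * x1 (-s) := by
      rw [n1_x1, neg_neg]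
    rw [e1, ap, hx1t _ _ hv]
  let T : VU S →ₗ[𝕜] VU S :=
    { toFun := fun v => ⟨pr S (S n1 v), pr_mem S _⟩
      map_add' := fun v w => by
        apply Subtype.ext
        show pr S (S n1 ((v : W) + w)) = _
        rw [map_add, map_add]
        rfl
      map_smul' := fun c v => by
        apply Subtype.ext
        show pr S (S n1 (c • (v : W))) = _
        rw [map_smul, map_smul]
        rfl }
  have hTi : Function.Injective T := by
    rw [← LinearMap.ker_eq_bot, LinearMap.ker_eq_bot']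
    intro v hv
    apply Subtype.ext
    exact T1_inj S hq v.2 (congrArg Subtype.val hv)
  have hTs : Function.Surjective T := LinearMap.surjective_of_injective hTi
  have hTs' : ∀ w ∈ VU S, ∃ v ∈ VU S, pr S (S n1 v) = w := by
    intro w hw
    obtain ⟨v, hv⟩ := hTs ⟨w, hw⟩
    exact ⟨v, v.2, congrArg Subtype.val hv⟩
  have hx2t : ∀ (s : F) (v : W), v ∈ VU S → ρ (x2 s) v = v := by
    intro s v hv
    obtain ⟨w, hw, rfl⟩ := hTs' v hv
    exact hT1 w hw s
  -- `na` is trivial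
  have hnam : ∀ v ∈ VU S, ρ na v ∈ VU S := by
    intro v hv a b c
    have e1 := na_u (F := F) b (-a) (c + b * (-a))
    have e2 : u (-(-a)) b (c + b * -a - b * -a) = u a b c := by
      congr 1 <;> ring
    rw [e2] at e1
    rw [hSa, ← ap, ← e1, ap, ← hSa, hv]
  have hnam' : ∀ v ∈ VU S, ρ na⁻¹ v ∈ VU S := by
    intro v hv a b c
    have e1 := na_u (F := F) a b c
    have e2 : slA (u a b c) * na⁻¹ = na⁻¹ * slA (u (-b) a (c - a * b)) := by
      rw [eq_inv_mul_iff_mul_eq, ← mul_assoc, e1, mul_inv_cancel_right]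
    rw [hSa, ← ap, e2, ap, ← hSa, hv]
  have hy2t : ∀ (s : F) (v : W), v ∈ VU S → ρ (y2 s) v = v := by
    intro s v hv
    have e1 := ap_inv' ρ na v
    have e2 : ρ (y2 s) (ρ na (ρ na⁻¹ v)) = ρ na (ρ na⁻¹ v) := by
      rw [← ap, ← na_x2, ap, hx2t s _ (hnam' v hv)]
    rwa [e1] at e2
  have hna : ∀ v ∈ VU S, ρ na v = v := by
    intro v hv
    rw [na_eq, ap, ap, hx2t _ _ hv, hy2t _ _ hv, hx2t _ _ hv]
  -- the diagonal torus is trivial
  have hDA : ∀ (y : Fˣ) (v : W), v ∈ VU S → S (D (y⁻¹, y ^ 2)) v = v := by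
    intro y v hv
    have e3 := hna _ (D_mem S (1, y) hv)
    rw [hSa, ← ap, na_D, ap, hna v hv, ← hSa] at e3
    simp only [one_mul] at e3
    rw [← hSa (D (1, y))] at e3
    have e4 := congrArg (S (D (y, y⁻¹))⁻¹) e3
    rw [S_inv, ← S_apply, ← map_inv D, ← map_mul D] at e4
    conv_rhs => rw [e4]
    congr 3
    apply Prod.ext
    · show y⁻¹ = y⁻¹ * 1
      rw [mul_one]
    · show y ^ 2 = (y⁻¹)⁻¹ * y
      rw [inv_inv, pow_two]
  have hDB : ∀ (y : Fˣ) (v : W), v ∈ VU S → S (D (y ^ 2, y⁻¹)) v = v := by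
    intro y v hv
    obtain ⟨w, hw, rfl⟩ := hTs' v hv
    rw [← pr_D S hq, ← S_apply, D_n1, S_apply, hDA y w hw]
  have hDC : ∀ (z : Fˣ) (v : W), v ∈ VU S → S (D (z, z⁻¹)) v = v := by
    intro z v hv
    obtain ⟨y, rfl⟩ := exists_cube_unit z
    have e1 : (y ^ 3, (y ^ 3)⁻¹) = (y ^ 2, y⁻¹) * ((y⁻¹)⁻¹, (y⁻¹) ^ 2) := by
      apply Prod.ext
      · show y ^ 3 = y ^ 2 * (y⁻¹)⁻¹
        rw [inv_inv, pow_succ]
      · show (y ^ 3)⁻¹ = y⁻¹ * (y⁻¹) ^ 2
        rw [pow_succ, _root_.mul_inv_rev, inv_pow]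
    rw [e1, map_mul, S_apply, hDA _ _ hv, hDB _ _ hv]
  have hDD : ∀ (p : Fˣ × Fˣ) (v : W), v ∈ VU S → S (D p) v = v := by
    intro p v hv
    obtain ⟨a, b⟩ := p
    have e1 : (a, b) = (a, a⁻¹) * ((a * b, (a * b)⁻¹) * ((a * b)⁻¹, (a * b) ^ 2)) := by
      apply Prod.ext
      · show a = a * (a * b * (a * b)⁻¹)
        rw [mul_inv_cancel, mul_one]
      · show b = a⁻¹ * ((a * b)⁻¹ * (a * b) ^ 2)
        rw [pow_two, inv_mul_cancel_left, inv_mul_cancel_left]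
    rw [e1, map_mul D, map_mul D, S_apply, S_apply, hDA _ _ hv, hDC _ _ hv, hDC _ _ hv]
  -- `T₂ = T₁`
  have hpna : ∀ v, pr S (ρ na v) = ρ na (pr S v) := by
    intro v
    refine pr_comm S (f := ρ na) (g := ρ na⁻¹) (fun v => ap_inv ρ _ v) hq hnam (fun a b c v => ?_) v
    rw [hSa, ← ap, na_u, ap, ← hSa, pr_u, ap_inv']
  have hT2 : ∀ v ∈ VU S, pr S (S n2 v) = pr S (S n1 v) := by
    intro v hv
    have e1 : ρ (slA n2) (ρ na v) = ρ na (ρ (slA n1) v) := by
      rw [← ap, ← ap, na_n1]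
    rw [hna v hv] at e1
    rw [hSa, e1, hpna, hna _ (pr_mem S _)]
    rfl
  -- the relation
  have hrel := sum_cells e h3 h0 (fun t => pr S (S (psi e t) v0)) v0 (pr S (S (n1 * n2) v0)) (pr S (S (n2 * n1) v0))
    (pr S (S (n1 * n2 * n1) v0)) (by
      show pr S (S (psi e 1) v0) = v0
      rw [map_one, S_one, pr_of_mem S hq hv0m]) (fun t ht h20 => by
      have h10 : (psi e t).1 1 0 ≠ 0 := fun h => regular_pt e h3 ht h h20
      obtain ⟨a, b, c, a', b', c', p, hp⟩ := cellA (psi e t) h20 h10 (regular_ln e h3 ht h20)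
      show pr S (S (psi e t) v0) = _
      rw [hp, S_apply, S_apply, S_apply, pr_u, hv0, hDD _ _ hv0m]) (fun t ht hm => by
      have h20 : (psi e t).1 2 0 ≠ 0 := by
        intro h20
        rw [h20, mul_zero, sub_zero] at hm
        rcases mul_eq_zero.1 hm with h | h
        · exact regular_pt e h3 ht h h20
        · exact regular_ln e h3 ht h20 h
      obtain ⟨a, b, c, a', b', c', p, hp⟩ := cellB (psi e t) h20 hm
      show pr S (S (psi e t) v0) = _
      rw [hp, S_apply, S_apply, S_apply, pr_u, hv0, hDD _ _ hv0m]) (fun t ht h20 hm => by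
      obtain ⟨a, b, c, a', b', c', p, hp⟩ := cellC (psi e t) h20 hm
      show pr S (S (psi e t) v0) = _
      rw [hp, S_apply, S_apply, S_apply, pr_u, hv0, hDD _ _ hv0m])
  have hz : ∑ t : Tor F E, pr S (S (psi e t) v0) = 0 := by
    rw [← map_sum, hsum, map_zero]
  have hTm : ∀ v, pr S (S n1 v) ∈ VU S := fun v => pr_mem S _
  rw [show (∑ t : Tor F E, (fun t => pr S (S (psi e t) v0)) t) = ∑ t : Tor F E, pr S (S (psi e t) v0) from rfl, hz,
    ← T1T2 S hq hv0m, ← T2T1 S hq hv0m, ← T1T2T1 S hq hv0m, hT2 _ hv0m, hT2 _ (hTm _)] at hrel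
  set t1 := pr S (S n1 v0) with ht1
  set t2 := pr S (S n1 t1) with ht2
  set t3 := pr S (S n1 t2) with ht3
  have r1 : (Fintype.card F : 𝕜) • t2 = v0 + ((Fintype.card F : 𝕜) - 1) • t1 := T1_sq S hq hv0m (fun p => hDD p _ hv0m)
  have r2 : (Fintype.card F : 𝕜) • t3 = t1 + ((Fintype.card F : 𝕜) - 1) • t2 :=
    T1_sq S hq (hTm _) (fun p => hDD p _ (hTm _))
  have hcast : ((Fintype.card F ^ 2 - Fintype.card F : ℕ) : 𝕜) = (Fintype.card F : 𝕜) ^ 2 - (Fintype.card F : 𝕜) := by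
    rw [Nat.cast_sub, Nat.cast_pow]
    rw [pow_two]
    exact Nat.le_mul_of_pos_left _ Fintype.card_pos
  rw [← Nat.cast_smul_eq_nsmul 𝕜 (Fintype.card F), ← Nat.cast_smul_eq_nsmul 𝕜 (Fintype.card F ^ 2 - Fintype.card F), hcast] at hrel
  set c : 𝕜 := (Fintype.card F : 𝕜) with hc
  have hT' : c ^ 2 + c + 1 ≠ 0 := by
    intro h
    apply hT
    push_cast
    exact h
  -- `(c² + c + 1) c t₂ = 0`
  have r3 : (c ^ 2 + c + 1) • (c • t2) = 0 := by
    have r4 : (c ^ 2 - c) • t3 = (c - 1) • (t1 + (c - 1) • t2) := by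
      rw [← r2, smul_smul]
      congr 1
      ring
    rw [r4] at hrel
    have r5 : (c ^ 2 + c + 1) • (c • t2) = c • (v0 + c • t2 + c • t2 + (c - 1) • (t1 + (c - 1) • t2)) := by
      have r6 : v0 = c • t2 - (c - 1) • t1 := by rw [r1, add_sub_cancel_right]
      rw [r6]
      module
    rw [r5, ← hrel, smul_zero]
  have r7 := (smul_eq_zero.1 ((smul_eq_zero.1 r3).resolve_left hT')).resolve_left hq
  have r8 : t1 = 0 := T1_inj S hq (hTm _) r7
  exact hv00 (T1_inj S hq hv0m r8)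

end Core

end Cfsg.Agent.H420.PG.G2
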