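import Mathlib
import Cfsg.Agent.H420.PG.G2Oct

/-!
# Relations in `SU₃(3) ≤ G₂(3)` (helper420)

`gU a b c`, `a b c : ZMod 3`, the Sylow `3`-subgroup, `gam` an element of order `8`, `nn` the reflection, `tt` an element of
order `7`. The relations are checked with `8 × 8` matrices over `ZMod 3`.
-/

set_option autoImplicit false
set_option linter.unusedSimpArgs false

namespace Cfsg.Agent.H420.PG.G2

open Matrix Module Cfsg.Agent.H161.Oct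

theorem x1_x3 {F : Type*} [Field F] [CharP F 3] (s t : F) : x1 s * x3 t = x3 t * x1 s := by
  have h30 : (3 : F) = 0 := by exact_mod_cast CharP.cast_eq_zero F 3
  apply ext_app
  intro x
  rw [x1, x3]
  simp only [mul_app, slA_app, ta_app, sw_app]
  apply ext8
  all_goals simp [slF0, slF1, slF2, slF3, slF4, slF5, slF6, slF7, swpF0, swpF1, swpF2, swpF3, swpF4, swpF5, swpF6,
    swpF7, tau0, tau1, tau2, tau3, tau4, tau5, tau6, tau7]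
  all_goals first
    | ring1
    | linear_combination -(t * x 3 * s) * h30
    | linear_combination (t * s * x 4) * h30

/-- the matrix of an automorphism -/
noncomputable def mt (f : AutO (ZMod 3)) : Matrix (Fin 8) (Fin 8) (ZMod 3) := LinearMap.toMatrix' f.1.toLinearMap

theorem mt_mul (f g : AutO (ZMod 3)) : mt (f * g) = mt f * mt g := LinearMap.toMatrix'_comp _ _

theorem mt_inj {f g : AutO (ZMod 3)} (h : mt f = mt g) : f = g := by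
  apply Subtype.ext
  apply LinearEquiv.toLinearMap_injective
  exact LinearMap.toMatrix'.injective h

theorem mt_one : mt 1 = 1 := LinearMap.toMatrix'_one

theorem mt_apply (f : AutO (ZMod 3)) (i j : Fin 8) : mt f i j = f.1 (Pi.single j 1) i := by
  rw [mt, LinearMap.toMatrix'_apply]
  rfl

/-- the matrix of `τ_p` -/
def mtau (p : Fin 3 → ZMod 3) : Matrix (Fin 8) (Fin 8) (ZMod 3) := Matrix.of fun i j => tauF p (Pi.single j 1) i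

/-- the matrix of the exchange automorphism -/
def mswp : Matrix (Fin 8) (Fin 8) (ZMod 3) := Matrix.of fun i j => swpF (Pi.single j 1) i

/-- the matrix of an element of `SL₃` -/
def msl (P : Matrix (Fin 3) (Fin 3) (ZMod 3)) : Matrix (Fin 8) (Fin 8) (ZMod 3) :=
  Matrix.of fun i j => slF P (Pi.single j 1) i

theorem mt_ta (p : Fin 3 → ZMod 3) : mt (ta p) = mtau p := by
  ext i j
  rw [mt_apply]
  rfl

theorem mt_sw : mt sw = mswp := by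
  ext i j
  rw [mt_apply]
  rfl

theorem mt_sl (P : Matrix.SpecialLinearGroup (Fin 3) (ZMod 3)) : mt (slA P) = msl P.1 := by
  ext i j
  rw [mt_apply]
  rfl

/-- a matrix -/
def MX2 : Matrix (Fin 8) (Fin 8) (ZMod 3) :=
  !![1, 0, 0, 0, 0, 1, 0, 0; 0, 1, 0, 0, 0, 0, 0, 0; 2, 0, 1, 0, 0, 2, 0, 1; 0, 0, 0, 1, 0, 0, 0, 0;
    0, 0, 0, 2, 1, 0, 0, 0; 0, 0, 0, 0, 0, 1, 0, 0; 0, 1, 0, 0, 0, 0, 1, 0; 0, 0, 0, 0, 0, 2, 0, 1]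

/-- a matrix -/
def MSW : Matrix (Fin 8) (Fin 8) (ZMod 3) :=
  !![0, 0, 0, 0, 0, 0, 0, 1; 0, 0, 0, 0, 2, 0, 0, 0; 0, 0, 0, 0, 0, 2, 0, 0; 0, 0, 0, 0, 0, 0, 2, 0;
    0, 2, 0, 0, 0, 0, 0, 0; 0, 0, 2, 0, 0, 0, 0, 0; 0, 0, 0, 2, 0, 0, 0, 0; 1, 0, 0, 0, 0, 0, 0, 0]

/-- a matrix -/
def MY2 : Matrix (Fin 8) (Fin 8) (ZMod 3) :=
  !![1, 0, 2, 0, 0, 0, 0, 0; 0, 1, 0, 0, 0, 0, 1, 0; 0, 0, 1, 0, 0, 0, 0, 0; 0, 0, 0, 1, 2, 0, 0, 0;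
    0, 0, 0, 0, 1, 0, 0, 0; 1, 0, 2, 0, 0, 1, 0, 2; 0, 0, 0, 0, 0, 0, 1, 0; 0, 0, 1, 0, 0, 0, 0, 1]

/-- a matrix -/
def MD : Matrix (Fin 8) (Fin 8) (ZMod 3) :=
  !![1, 0, 0, 0, 0, 0, 0, 0; 0, 1, 0, 0, 0, 0, 0, 0; 0, 0, 2, 0, 0, 0, 0, 0; 0, 0, 0, 2, 0, 0, 0, 0;
    0, 0, 0, 0, 1, 0, 0, 0; 0, 0, 0, 0, 0, 2, 0, 0; 0, 0, 0, 0, 0, 0, 2, 0; 0, 0, 0, 0, 0, 0, 0, 1]

/-- a matrix -/
def MG : Matrix (Fin 8) (Fin 8) (ZMod 3) :=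
  !![2, 0, 2, 0, 0, 2, 0, 2; 0, 1, 0, 0, 0, 0, 2, 0; 1, 0, 2, 0, 0, 1, 0, 2; 0, 0, 0, 2, 2, 0, 0, 0;
    0, 0, 0, 1, 2, 0, 0, 0; 1, 0, 1, 0, 0, 2, 0, 2; 0, 1, 0, 0, 0, 0, 1, 0; 2, 0, 1, 0, 0, 1, 0, 2]

/-- a matrix -/
def MN : Matrix (Fin 8) (Fin 8) (ZMod 3) :=
  !![1, 0, 0, 0, 0, 0, 0, 0; 0, 0, 0, 1, 0, 0, 0, 0; 0, 0, 1, 0, 0, 0, 0, 0; 0, 2, 0, 0, 0, 0, 0, 0;
    0, 0, 0, 0, 0, 0, 1, 0; 0, 0, 0, 0, 0, 1, 0, 0; 0, 0, 0, 0, 2, 0, 0, 0; 0, 0, 0, 0, 0, 0, 0, 1]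

/-- a matrix -/
def ML100 : Matrix (Fin 8) (Fin 8) (ZMod 3) :=
  !![1, 0, 0, 1, 0, 0, 0, 0; 0, 1, 1, 0, 2, 1, 0, 0; 0, 0, 1, 0, 2, 0, 0, 0; 0, 0, 0, 1, 0, 0, 0, 0;
    0, 0, 0, 0, 1, 0, 0, 0; 0, 0, 0, 0, 2, 1, 0, 0; 2, 0, 0, 2, 0, 0, 1, 1; 0, 0, 0, 2, 0, 0, 0, 1]

/-- a matrix -/
def ML010 : Matrix (Fin 8) (Fin 8) (ZMod 3) :=
  !![1, 0, 0, 0, 1, 0, 0, 0; 2, 1, 0, 0, 2, 0, 0, 1; 0, 0, 1, 1, 0, 0, 0, 0; 0, 0, 0, 1, 0, 0, 0, 0;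
    0, 0, 0, 0, 1, 0, 0, 0; 0, 0, 0, 1, 0, 1, 0, 0; 0, 0, 2, 2, 0, 2, 1, 0; 0, 0, 0, 0, 2, 0, 0, 1]

/-- a matrix -/
def ML001 : Matrix (Fin 8) (Fin 8) (ZMod 3) :=
  !![1, 0, 0, 0, 0, 0, 0, 0; 0, 1, 0, 1, 0, 0, 0, 0; 0, 0, 1, 0, 0, 0, 0, 0; 0, 0, 0, 1, 0, 0, 0, 0;
    0, 0, 0, 0, 1, 0, 0, 0; 0, 0, 0, 0, 0, 1, 0, 0; 0, 0, 0, 0, 2, 0, 1, 0; 0, 0, 0, 0, 0, 0, 0, 1]

/-- a matrix -/
def ML002 : Matrix (Fin 8) (Fin 8) (ZMod 3) :=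
  !![1, 0, 0, 0, 0, 0, 0, 0; 0, 1, 0, 2, 0, 0, 0, 0; 0, 0, 1, 0, 0, 0, 0, 0; 0, 0, 0, 1, 0, 0, 0, 0;
    0, 0, 0, 0, 1, 0, 0, 0; 0, 0, 0, 0, 0, 1, 0, 0; 0, 0, 0, 0, 1, 0, 1, 0; 0, 0, 0, 0, 0, 0, 0, 1]

/-- a matrix -/
def ML222 : Matrix (Fin 8) (Fin 8) (ZMod 3) :=
  !![1, 0, 0, 2, 2, 0, 0, 0; 1, 1, 2, 0, 1, 2, 0, 2; 0, 0, 1, 2, 1, 0, 0, 0; 0, 0, 0, 1, 0, 0, 0, 0;
    0, 0, 0, 0, 1, 0, 0, 0; 0, 0, 0, 2, 1, 1, 0, 0; 1, 0, 1, 1, 0, 1, 1, 2; 0, 0, 0, 1, 1, 0, 0, 1]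

/-- a matrix -/
def ML121 : Matrix (Fin 8) (Fin 8) (ZMod 3) :=
  !![1, 0, 0, 1, 2, 0, 0, 0; 1, 1, 1, 0, 1, 1, 0, 2; 0, 0, 1, 2, 2, 0, 0, 0; 0, 0, 0, 1, 0, 0, 0, 0;
    0, 0, 0, 0, 1, 0, 0, 0; 0, 0, 0, 2, 2, 1, 0, 0; 2, 0, 1, 1, 0, 1, 1, 1; 0, 0, 0, 2, 1, 0, 0, 1]

/-- a matrix -/
def ML112 : Matrix (Fin 8) (Fin 8) (ZMod 3) :=
  !![1, 0, 0, 1, 1, 0, 0, 0; 2, 1, 1, 0, 1, 1, 0, 1; 0, 0, 1, 1, 2, 0, 0, 0; 0, 0, 0, 1, 0, 0, 0, 0;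
    0, 0, 0, 0, 1, 0, 0, 0; 0, 0, 0, 1, 2, 1, 0, 0; 2, 0, 2, 1, 0, 2, 1, 1; 0, 0, 0, 2, 2, 0, 0, 1]

/-- a matrix -/
def ML102 : Matrix (Fin 8) (Fin 8) (ZMod 3) :=
  !![1, 0, 0, 1, 0, 0, 0, 0; 0, 1, 1, 2, 2, 1, 0, 0; 0, 0, 1, 0, 2, 0, 0, 0; 0, 0, 0, 1, 0, 0, 0, 0;
    0, 0, 0, 0, 1, 0, 0, 0; 0, 0, 0, 0, 2, 1, 0, 0; 2, 0, 0, 2, 1, 0, 1, 1; 0, 0, 0, 2, 0, 0, 0, 1]

/-- a matrix -/
def ML011 : Matrix (Fin 8) (Fin 8) (ZMod 3) :=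
  !![1, 0, 0, 0, 1, 0, 0, 0; 2, 1, 0, 1, 2, 0, 0, 1; 0, 0, 1, 1, 0, 0, 0, 0; 0, 0, 0, 1, 0, 0, 0, 0;
    0, 0, 0, 0, 1, 0, 0, 0; 0, 0, 0, 1, 0, 1, 0, 0; 0, 0, 2, 2, 2, 2, 1, 0; 0, 0, 0, 0, 2, 0, 0, 1]

/-- a matrix -/
def MT : Matrix (Fin 8) (Fin 8) (ZMod 3) :=
  !![2, 0, 2, 1, 0, 2, 0, 2; 0, 0, 0, 2, 2, 0, 0, 0; 1, 0, 2, 0, 2, 1, 0, 2; 1, 2, 2, 1, 0, 2, 1, 2;
    2, 1, 2, 0, 1, 2, 1, 1; 1, 0, 1, 0, 2, 2, 0, 2; 0, 0, 0, 2, 1, 0, 0, 0; 2, 0, 1, 2, 0, 1, 0, 2]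

/-- a matrix -/
def MT2 : Matrix (Fin 8) (Fin 8) (ZMod 3) :=
  !![1, 2, 2, 1, 2, 2, 1, 0; 0, 0, 2, 2, 2, 2, 1, 0; 1, 2, 1, 2, 2, 0, 2, 2; 2, 2, 0, 0, 1, 0, 1, 1;
    0, 1, 1, 2, 0, 1, 1, 0; 1, 2, 0, 2, 2, 1, 2, 2; 1, 2, 0, 2, 1, 0, 0, 2; 0, 1, 1, 2, 1, 1, 2, 1]

/-- a matrix -/
def MG2 : Matrix (Fin 8) (Fin 8) (ZMod 3) :=
  !![0, 0, 0, 0, 0, 0, 0, 1; 0, 0, 0, 0, 0, 0, 1, 0; 0, 0, 0, 0, 0, 2, 0, 0; 0, 0, 0, 0, 2, 0, 0, 0;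
    0, 0, 0, 1, 0, 0, 0, 0; 0, 0, 2, 0, 0, 0, 0, 0; 0, 2, 0, 0, 0, 0, 0, 0; 1, 0, 0, 0, 0, 0, 0, 0]

/-- a matrix -/
def MG4 : Matrix (Fin 8) (Fin 8) (ZMod 3) :=
  !![1, 0, 0, 0, 0, 0, 0, 0; 0, 2, 0, 0, 0, 0, 0, 0; 0, 0, 1, 0, 0, 0, 0, 0; 0, 0, 0, 2, 0, 0, 0, 0;
    0, 0, 0, 0, 2, 0, 0, 0; 0, 0, 0, 0, 0, 1, 0, 0; 0, 0, 0, 0, 0, 0, 2, 0; 0, 0, 0, 0, 0, 0, 0, 1]

/-- the unipotent elements -/
noncomputable def gU (a b c : ZMod 3) : AutO (ZMod 3) := slA (u a b c) * x1 b * x3 a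

/-- the element of order `8` -/
noncomputable def gam : AutO (ZMod 3) := x2 1 * y2 2 * slA (D (1, -1))

/-- the reflection -/
noncomputable def nn : AutO (ZMod 3) := slA P0

/-- the element of order `7` -/
noncomputable def tt : AutO (ZMod 3) := nn * gam * gU 0 1 1

theorem msw_eq : mswp = MSW := by decide +kernel

theorem mt_x2 : mt (x2 1) = MX2 := by
  rw [x2, mt_ta]
  decide +kernel

theorem mt_y2 : mt (y2 2) = MY2 := by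
  rw [y2, mt_mul, mt_mul, mt_sw, mt_ta]
  decide +kernel

theorem mt_D : mt (slA (D (1, -1))) = MD := by
  rw [mt_sl]
  decide +kernel

theorem mt_gam : mt gam = MG := by
  rw [gam, mt_mul, mt_mul, mt_x2, mt_y2, mt_D]
  decide +kernel

theorem mt_nn : mt nn = MN := by
  rw [nn, mt_sl]
  decide +kernel

theorem mt_g100 : mt (gU 1 0 0) = ML100 := by
  rw [gU, x1, x3]
  simp only [mt_mul, mt_sl, mt_ta, mt_sw, msw_eq]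
  decide +kernel

theorem mt_g010 : mt (gU 0 1 0) = ML010 := by
  rw [gU, x1, x3]
  simp only [mt_mul, mt_sl, mt_ta, mt_sw, msw_eq]
  decide +kernel

theorem mt_g001 : mt (gU 0 0 1) = ML001 := by
  rw [gU, x1, x3]
  simp only [mt_mul, mt_sl, mt_ta, mt_sw, msw_eq]
  decide +kernel

theorem mt_g002 : mt (gU 0 0 2) = ML002 := by
  rw [gU, x1, x3]
  simp only [mt_mul, mt_sl, mt_ta, mt_sw, msw_eq]
  decide +kernel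

theorem mt_g222 : mt (gU 2 2 2) = ML222 := by
  rw [gU, x1, x3]
  simp only [mt_mul, mt_sl, mt_ta, mt_sw, msw_eq]
  decide +kernel

theorem mt_g121 : mt (gU 1 2 1) = ML121 := by
  rw [gU, x1, x3]
  simp only [mt_mul, mt_sl, mt_ta, mt_sw, msw_eq]
  decide +kernel

theorem mt_g112 : mt (gU 1 1 2) = ML112 := by
  rw [gU, x1, x3]
  simp only [mt_mul, mt_sl, mt_ta, mt_sw, msw_eq]
  decide +kernel

theorem mt_g102 : mt (gU 1 0 2) = ML102 := by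
  rw [gU, x1, x3]
  simp only [mt_mul, mt_sl, mt_ta, mt_sw, msw_eq]
  decide +kernel

theorem mt_g011 : mt (gU 0 1 1) = ML011 := by
  rw [gU, x1, x3]
  simp only [mt_mul, mt_sl, mt_ta, mt_sw, msw_eq]
  decide +kernel

theorem mt_tt : mt tt = MT := by
  rw [tt, mt_mul, mt_mul, mt_nn, mt_gam, mt_g011]
  decide +kernel

/-! ### The relations -/

theorem pow8 {G : Type*} [Group G] (g : G) : g ^ 8 = (g * g) * (g * g) * ((g * g) * (g * g)) := by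
  simp only [pow_succ, pow_zero, one_mul, mul_assoc]

theorem gam_eight : gam ^ 8 = 1 := by
  rw [pow8]
  apply mt_inj
  rw [mt_mul, mt_mul, mt_mul, mt_gam, mt_one,
    show MG * MG = MG2 by decide +kernel, show MG2 * MG2 = MG4 by decide +kernel]
  decide +kernel

theorem gam_a : gam * gU 1 0 0 = gU 2 2 2 * gam := by
  apply mt_inj
  rw [mt_mul, mt_mul, mt_gam, mt_g100, mt_g222]
  decide +kernel

theorem gam_b : gam * gU 0 1 0 = gU 1 2 1 * gam := by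
  apply mt_inj
  rw [mt_mul, mt_mul, mt_gam, mt_g010, mt_g121]
  decide +kernel

theorem gam_c : gam * gU 0 0 1 = gU 0 0 2 * gam := by
  apply mt_inj
  rw [mt_mul, mt_mul, mt_gam, mt_g001, mt_g002]
  decide +kernel

theorem gam_a' : gU 1 0 0 * gam = gam * gU 1 2 1 := by
  apply mt_inj
  rw [mt_mul, mt_mul, mt_gam, mt_g100, mt_g121]
  decide +kernel

theorem gam_b' : gU 0 1 0 * gam = gam * gU 1 1 2 := by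
  apply mt_inj
  rw [mt_mul, mt_mul, mt_gam, mt_g010, mt_g112]
  decide +kernel

theorem gam_c' : gU 0 0 1 * gam = gam * gU 0 0 2 := by
  apply mt_inj
  rw [mt_mul, mt_mul, mt_gam, mt_g001, mt_g002]
  decide +kernel

theorem nn_gam : nn * gam * nn = gam := by
  apply mt_inj
  rw [mt_mul, mt_mul, mt_gam, mt_nn]
  decide +kernel

theorem x_tt : gU 1 0 2 * tt = tt ^ 2 * gU 1 0 2 := by
  apply mt_inj
  rw [pow_two, mt_mul, mt_mul, mt_mul, mt_tt, mt_g102, show MT * MT = MT2 by decide +kernel]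
  decide +kernel

theorem tt_ne : tt ≠ 1 := by
  intro h
  have h1 := congrArg mt h
  rw [mt_tt, mt_one] at h1
  revert h1
  decide +kernel

/-- multiplication in the Sylow `3`-subgroup -/
theorem gU_mul (a b c a' b' c' : ZMod 3) : gU a b c * gU a' b' c' = gU (a + a') (b + b') (c + c' + a * b') := by
  rw [gU, gU, gU, ← u_mul, map_mul, ← x1_add, ← x3_add]
  have e1 := u_x1 a' b' c' b
  have e3 := u_x3 a' b' c' a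
  have e13 := x1_x3 b' a
  generalize slA (u a' b' c') = M at *
  generalize slA (u a b c) = N
  generalize x1 b = p at *
  generalize x1 b' = p' at *
  generalize x3 a = r at *
  generalize x3 a' = r' at *
  calc N * p * r * (M * p' * r') = N * p * (r * M) * p' * r' := by simp only [mul_assoc]
    _ = N * (p * M) * (r * p') * r' := by rw [← e3]; simp only [mul_assoc]
    _ = N * M * (p * p') * (r * r') := by rw [← e1, ← e13]; simp only [mul_assoc]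

theorem gU_zero : gU 0 0 0 = 1 := by
  rw [gU, u_zero, map_one, one_mul, x1_eq, x3_eq, zero_smul, zero_smul, ta_zero, one_mul, mul_one, sw_sw]

end Cfsg.Agent.H420.PG.G2
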