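import Mathlib
import Cfsg.Agent.H420.PG.G2Core
import Cfsg.Agent.H148.Oct.SepG2
import Cfsg.Agent.H415.PG.Def
import Cfsg.Agent.H420.PG.G2Ex
import Cfsg.Agent.GpExc.Field

/-!
# Cross characteristic modules of `G₂(q)`, `q` a power of three (helper420)

* `fix_G2` : `Fix` for `G₂(q)`, `q = 3^k`, `k ≥ 2`, in characteristic `r ≠ 3`, `r` not dividing `q² + q + 1`.
* `fix_gen` : in every module in characteristic `r` of `G₂(q)`, `q = 3^k`, `k ≥ 2`, `(q, r) ≠ (9, 2)`, `r ≠ 3`,
  `r` not dividing `q² + q + 1`, some element of prime order dividing `q² + q + 1` fixes a nonzero vector.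
-/

set_option autoImplicit false
set_option linter.unusedSectionVars false

namespace Cfsg.Agent.H420.PG.G2

open Matrix Module Cfsg.Lie Cfsg.Agent.H161.Oct
open scoped TensorProduct

universe u v w

theorem slA_injective {F : Type*} [Field F] : Function.Injective (slA : Matrix.SpecialLinearGroup (Fin 3) F →* AutO F) := by
  intro P Q h
  exact slM_inj (congrArg Subtype.val h)

theorem psi_injective {F E : Type*} [Field F] [Fintype F] [CharP F 3] [Field E] [Fintype E] [Algebra F E] (e : Basis (Fin 3) F E) :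
    Function.Injective (psi e) := by
  intro s t h
  apply Subtype.ext
  apply Units.ext
  exact Algebra.leftMulMatrix_injective e (congrArg Subtype.val h)

/-- a unit of order prime to the characteristic of the module -/
theorem exists_unit {F : Type*} [Field F] [Fintype F] [CharP F 3] {k : ℕ} (hF : Fintype.card F = 3 ^ k) (hk : 2 ≤ k)
    {r : ℕ} (hr : r.Prime) (hne : ¬ (k = 2 ∧ r = 2)) : ∃ x : Fˣ, x ≠ 1 ∧ ∃ m : ℕ, x ^ m = 1 ∧ ¬ r ∣ m := by
  classical
  by_cases hr2 : r = 2
  · -- `q - 1` has an odd prime divisor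
    have hk3 : k ≠ 2 := fun h => hne ⟨h, hr2⟩
    obtain ⟨p, hp, hp2, hpd⟩ : ∃ p : ℕ, p.Prime ∧ p ≠ 2 ∧ p ∣ 3 ^ k - 1 := by
      by_contra hcon
      push Not at hcon
      have h1 : ∀ p : ℕ, p.Prime → p ∣ 3 ^ k - 1 → p = 2 := by
        intro p hp hd
        by_contra h
        exact hcon p hp h hd
      have hpos : 3 ^ k - 1 ≠ 0 := by
        have := Nat.pow_le_pow_right (show 0 < 3 by norm_num) hk
        omega
      obtain ⟨j, hj⟩ : ∃ j, 3 ^ k - 1 = 2 ^ j := by
        refine ⟨_, Nat.eq_prime_pow_of_unique_prime_dvd hpos fun {d} hd hd' => h1 d hd hd'⟩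
      rcases Nat.even_or_odd k with ⟨l, hl⟩ | ⟨l, hl⟩
      · -- `(3^l - 1)(3^l + 1) = 2^j`
        have h2 : (3 ^ l - 1) * (3 ^ l + 1) = 2 ^ j := by
          rw [← hj, hl, pow_add]
          have h3 : 1 ≤ 3 ^ l := Nat.one_le_pow _ _ (by norm_num)
          obtain ⟨c, hc⟩ : ∃ c, 3 ^ l = c + 1 := ⟨3 ^ l - 1, by omega⟩
          rw [hc, Nat.add_sub_cancel]
          have : (c + 1) * (c + 1) = c * (c + 1 + 1) + 1 := by ring
          omega
        obtain ⟨a, ha, ha'⟩ := (Nat.dvd_prime_pow Nat.prime_two).1 (Dvd.intro _ h2)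
        obtain ⟨b, hb, hb'⟩ := (Nat.dvd_prime_pow Nat.prime_two).1 (Dvd.intro_left _ h2)
        have h4 : 2 ^ b = 2 ^ a + 2 := by
          have h3 : 1 ≤ 3 ^ l := Nat.one_le_pow _ _ (by norm_num)
          omega
        have ha1 : a = 1 := by
          rcases Nat.lt_or_ge a 2 with h5 | h5
          · interval_cases a
            · -- `2^b = 3`
              exfalso
              rcases Nat.eq_zero_or_pos b with h6 | h6
              · rw [h6] at h4; norm_num at h4
              · have := dvd_pow_self 2 h6.ne'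
                omega
            · rfl
          · exfalso
            have h6 : 4 ∣ 2 ^ a := pow_dvd_pow 2 h5
            have h7 : 2 ≤ b := by
              by_contra h8
              have h9 : b ≤ 1 := by omega
              have := Nat.pow_le_pow_right (show 0 < 2 by norm_num) h9
              have := Nat.pow_le_pow_right (show 0 < 2 by norm_num) h5
              omega
            have h8 : 4 ∣ 2 ^ b := pow_dvd_pow 2 h7
            omega
        rw [ha1] at ha'
        have h5 : 3 ^ l = 3 ^ 1 := by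
          have h3 : 1 ≤ 3 ^ l := Nat.one_le_pow _ _ (by norm_num)
          omega
        have h6 : l = 1 := Nat.pow_right_injective (show 2 ≤ 3 by norm_num) h5
        omega
      · -- `k` odd: `3^k - 1 = 2 mod 4`
        have h2 : 3 ^ k % 4 = 3 := by
          rw [hl, pow_add, pow_mul]
          rw [Nat.mul_mod, Nat.pow_mod]
          norm_num
        have h3 : j ≤ 1 := by
          by_contra h4
          have h5 : 4 ∣ 2 ^ j := pow_dvd_pow 2 (show 2 ≤ j by omega)
          omega
        have h4 := Nat.pow_le_pow_right (show 0 < 2 by norm_num) h3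
        have h5 := Nat.pow_le_pow_right (show 0 < 3 by norm_num) hk
        omega
    have hc : p ∣ Nat.card Fˣ := by
      rw [Nat.card_units, Nat.card_eq_fintype_card, hF]
      exact hpd
    have : Fact p.Prime := ⟨hp⟩
    obtain ⟨x, hx⟩ := exists_prime_orderOf_dvd_card' p hc
    refine ⟨x, ?_, p, ?_, ?_⟩
    · rintro rfl
      rw [orderOf_one] at hx
      exact hp.one_lt.ne hx
    · rw [← hx]; exact pow_orderOf_eq_one x
    · intro hd
      exact hp2 ((hr2 ▸ (Nat.prime_dvd_prime_iff_eq hr hp).1 hd : 2 = p).symm)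
  · refine ⟨-1, ?_, 2, ?_, ?_⟩
    · intro h
      have h1 := congrArg Units.val h
      rw [Units.val_neg, Units.val_one] at h1
      have h2 : (2 : F) = 0 := by linear_combination -h1
      have h3 : (3 : F) = 0 := by exact_mod_cast CharP.cast_eq_zero F 3
      have h4 : (1 : F) = 0 := by linear_combination h3 - h2
      exact one_ne_zero h4
    · exact neg_one_sq
    · intro hd
      exact hr2 ((Nat.prime_dvd_prime_iff_eq hr Nat.prime_two).1 hd)

section Main

variable {F : Type u} [Field F] [Fintype F]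

theorem fix_gen {k : ℕ} (hF : Fintype.card F = 3 ^ k) (hk : 2 ≤ k) {r : ℕ} (hr : r.Prime) (hr3 : r ≠ 3)
    (hrn : ¬ r ∣ (3 ^ k) ^ 2 + 3 ^ k + 1) (hne : ¬ (k = 2 ∧ r = 2)) :
    Cfsg.Agent.H415.PG3.Fix.{u, w} ↥(AutO F) r ((3 ^ k) ^ 2 + 3 ^ k + 1) := by
  classical
  intro V _ _ _ _ ρ
  have : Fact (Nat.Prime 3) := ⟨Nat.prime_three⟩
  have : Fact r.Prime := ⟨hr⟩
  have hchar : CharP F 3 := by
    obtain ⟨p, hp⟩ := CharP.exists F
    obtain ⟨n, hpp, hn⟩ := FiniteField.card F p
    rw [hF] at hn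
    have h1 : p ∣ 3 ^ k := by
      rw [hn]; exact dvd_pow_self p n.ne_zero
    have h2 := (Nat.prime_dvd_prime_iff_eq hpp Nat.prime_three).1 (hpp.dvd_of_dvd_pow h1)
    rw [← h2]; exact hp
  by_contra hcon
  push Not at hcon
  -- the extension
  let E := FiniteField.Extension F 3 3
  have : Fintype E := Fintype.ofFinite E
  have h3 : finrank F E = 3 := FiniteField.finrank_extension F 3 3
  obtain ⟨e, h0, h1, h2⟩ := exists_basis (F := F) (E := E) h3
  have : Fintype (Tor F E) := Fintype.ofFinite _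
  have hcT : Nat.card (Tor F E) = (3 ^ k) ^ 2 + 3 ^ k + 1 := by rw [card_tor h3, hF]
  -- an element of prime order
  obtain ⟨p, hp, hpd⟩ := Nat.exists_prime_and_dvd (n := (3 ^ k) ^ 2 + 3 ^ k + 1) (by have := Nat.one_le_pow k 3 (by norm_num); omega)
  obtain ⟨t0, ht0⟩ := exists_prime_orderOf_dvd_card' (G := Tor F E) p (hp := ⟨hp⟩) (by rw [hcT]; exact hpd)
  have hx0 : orderOf (slA (psi e t0)) = p := by
    rw [orderOf_injective _ slA_injective, orderOf_injective _ (psi_injective e), ht0]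
  have hfpf : ∀ v : V, ρ (slA (psi e t0)) v = v → v = 0 := by
    intro v hv
    by_contra hv0
    exact hcon (slA (psi e t0)) (by rw [hx0]; exact hp) (by rw [hx0]; exact hpd) v hv0 hv
  have hsumV : ∀ v : V, ∑ t : Tor F E, ρ (slA (psi e t)) v = 0 := by
    intro v
    apply hfpf
    rw [map_sum]
    refine Fintype.sum_equiv (Equiv.mulLeft t0) _ _ fun t => ?_
    show ρ (slA (psi e t0)) (ρ (slA (psi e t)) v) = ρ (slA (psi e (t0 * t))) v
    rw [map_mul, map_mul, map_mul]
    rfl
  -- extension of scalars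
  let 𝕜 := AlgebraicClosure (ZMod r)
  let W := TensorProduct (ZMod r) 𝕜 V
  let ρ' : AutO F →* Module.End 𝕜 W :=
    { toFun := fun g => LinearMap.baseChange 𝕜 (ρ g).toLinearMap
      map_one' := by
        rw [map_one]
        exact LinearMap.baseChange_id
      map_mul' := fun g h => by
        rw [map_mul]
        exact LinearMap.baseChange_comp _ _ }
  have hρ' : ∀ g (a : 𝕜) (v : V), ρ' g (a ⊗ₜ[ZMod r] v) = a ⊗ₜ[ZMod r] (ρ g v) := fun g a v => rfl
  have hVf : FiniteDimensional (ZMod r) V := inferInstance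
  have hsum : ∀ w : W, ∑ t : Tor F E, SS ρ' (psi e t) w = 0 := by
    intro w
    induction w using TensorProduct.induction_on with
    | zero => exact Finset.sum_eq_zero fun t _ => map_zero _
    | tmul a v =>
      have h4 : ∀ t : Tor F E, SS ρ' (psi e t) (a ⊗ₜ[ZMod r] v) = a ⊗ₜ[ZMod r] (ρ (slA (psi e t)) v) := fun t => rfl
      simp_rw [h4]
      rw [← TensorProduct.tmul_sum, hsumV, TensorProduct.tmul_zero]
    | add x y hx hy =>
      simp_rw [map_add]
      rw [Finset.sum_add_distrib, hx, hy, add_zero]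
  have hWn : Nontrivial W := by
    have h4 : finrank 𝕜 W = finrank (ZMod r) V := Module.finrank_baseChange
    have h5 : 0 < finrank (ZMod r) V := Module.finrank_pos
    exact Module.nontrivial_of_finrank_pos (R := 𝕜) (by rw [h4]; exact h5)
  have hchk : CharP 𝕜 r := charP_of_injective_algebraMap (algebraMap (ZMod r) 𝕜).injective r
  have hcast : ∀ n : ℕ, ¬ r ∣ n → (n : 𝕜) ≠ 0 := fun n hn h => hn ((CharP.cast_eq_zero_iff 𝕜 r n).1 h)
  have hq : (Fintype.card F : 𝕜) ≠ 0 := by
    rw [hF]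
    apply hcast
    intro h
    exact hr3 ((Nat.prime_dvd_prime_iff_eq hr Nat.prime_three).1 (hr.dvd_of_dvd_pow h))
  have hT : ((Fintype.card F ^ 2 + Fintype.card F + 1 : ℕ) : 𝕜) ≠ 0 := by
    rw [hF]
    exact hcast _ hrn
  obtain ⟨x, hx1, m, hxm, hm⟩ := exists_unit hF hk hr hne
  exact core ρ' e h3 h0 h1 h2 hq hT hsum ⟨x, hx1, m, hxm, hcast m hm⟩

/-- the exceptional case -/
theorem fix_two (hF : CharP F 3) : Cfsg.Agent.H415.PG3.Fix.{u, w} ↥(AutO F) 2 7 := by
  classical
  intro V _ _ _ _ ρ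
  have : Fact (Nat.Prime 2) := ⟨Nat.prime_two⟩
  have : Fact (Nat.Prime 3) := ⟨Nat.prime_three⟩
  by_contra hcon
  push Not at hcon
  -- the embedding of `G₂(3)`
  obtain ⟨e3⟩ := Cfsg.Agent.H148.Oct.nonempty_equiv (ZMod 3)
  obtain ⟨eF⟩ := Cfsg.Agent.H148.Oct.nonempty_equiv F
  let θ : AutO (ZMod 3) →* AutO F := (eF.symm.toMonoidHom.comp
    (Cfsg.Agent.GpExc.Field.emb (D := chevG2) (by simp [Cfsg.Agent.ChevalleyStructure.Elts.InList])
      (ZMod.castHom (dvd_refl 3) F))).comp e3.toMonoidHom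
  have hθ : Function.Injective θ :=
    (eF.symm.injective.comp (Cfsg.Agent.GpExc.Field.emb_injective _ _)).comp e3.injective
  have ho : orderOf (tt) = 7 := orderOf_eq_prime (pow_seven x_tt x_three) tt_ne (hp := ⟨by norm_num⟩)
  have hoθ : orderOf (θ tt) = 7 := by rw [orderOf_injective θ hθ, ho]
  have hfpf : ∀ v : V, ρ (θ tt) v = v → v = 0 := by
    intro v hv
    by_contra hv0
    exact hcon (θ tt) (by rw [hoθ]; norm_num) (by rw [hoθ]) v hv0 hv
  -- extension of scalars
  let 𝕜 := AlgebraicClosure (ZMod 2)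
  let W := TensorProduct (ZMod 2) 𝕜 V
  let ρ' : AutO (ZMod 3) →* Module.End 𝕜 W :=
    { toFun := fun g => LinearMap.baseChange 𝕜 (ρ (θ g)).toLinearMap
      map_one' := by
        rw [map_one, map_one]
        exact LinearMap.baseChange_id
      map_mul' := fun g h => by
        rw [map_mul, map_mul]
        exact LinearMap.baseChange_comp _ _ }
  have hVf : FiniteDimensional (ZMod 2) V := inferInstance
  have hWn : Nontrivial W := by
    have h4 : finrank 𝕜 W = finrank (ZMod 2) V := Module.finrank_baseChange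
    have h5 : 0 < finrank (ZMod 2) V := Module.finrank_pos
    exact Module.nontrivial_of_finrank_pos (R := 𝕜) (by rw [h4]; exact h5)
  have hchk : CharP 𝕜 2 := charP_of_injective_algebraMap (algebraMap (ZMod 2) 𝕜).injective 2
  have h2 : (2 : 𝕜) = 0 := by exact_mod_cast CharP.cast_eq_zero 𝕜 2
  refine ex_core h2 ρ' fun w hw => ?_
  -- the operator `∑ t ^ i` vanishes
  have hs : ∀ w : W, ∑ i ∈ Finset.range 7, (ρ' (tt ^ i)) w = 0 := by
    intro w
    induction w using TensorProduct.induction_on with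
    | zero => exact Finset.sum_eq_zero fun t _ => map_zero _
    | tmul a v =>
      have h4 : ∀ i, ρ' (tt ^ i) (a ⊗ₜ[ZMod 2] v) = a ⊗ₜ[ZMod 2] (((ρ (θ tt)).toLinearMap ^ i) v) := by
        intro i
        show a ⊗ₜ[ZMod 2] (ρ (θ (tt ^ i)) v) = _
        congr 1
        rw [map_pow, map_pow]
        have h5 : ∀ i, ((ρ (θ tt)) ^ i) v = (((ρ (θ tt)).toLinearMap) ^ i) v := by
          intro i
          induction i with
          | zero => rfl
          | succ i ih => rw [pow_succ', pow_succ', Module.End.mul_apply, ← ih]; rfl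
        exact h5 i
      simp_rw [h4]
      rw [← TensorProduct.tmul_sum, Cfsg.Agent.H420.PG.sum_pow_eq_zero (f := (ρ (θ tt)).toLinearMap) (s := 7) ?_ hfpf v,
        TensorProduct.tmul_zero]
      have h6 : (ρ (θ tt)) ^ 7 = 1 := by
        rw [← map_pow, ← map_pow, pow_seven x_tt x_three, map_one, map_one]
      ext v
      have h5 : ∀ i, ((ρ (θ tt)) ^ i) v = (((ρ (θ tt)).toLinearMap) ^ i) v := by
        intro i
        induction i with
        | zero => rfl
        | succ i ih => rw [pow_succ', pow_succ', Module.End.mul_apply, ← ih]; rfl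
      rw [← h5, h6]
      rfl
    | add x y hx hy =>
      simp_rw [map_add]
      rw [Finset.sum_add_distrib, hx, hy, add_zero]
  have h8 := hs w
  have h9 : ∀ i, ρ' (tt ^ i) w = w := by
    intro i
    rw [map_pow]
    induction i with
    | zero => rfl
    | succ i ih => rw [pow_succ, Module.End.mul_apply, hw, ih]
  simp_rw [h9] at h8
  rw [Finset.sum_const, Finset.card_range, ← Nat.cast_smul_eq_nsmul 𝕜] at h8
  have h10 : ((7 : ℕ) : 𝕜) = 1 := by
    push_cast
    linear_combination 3 * h2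
  rwa [h10, one_smul] at h8

theorem fix_mono {L : Type v} [Group L] {r m n : ℕ} (h : Cfsg.Agent.H415.PG3.Fix.{v, w} L r m) (hmn : m ∣ n) :
    Cfsg.Agent.H415.PG3.Fix.{v, w} L r n := by
  intro V _ _ _ _ ρ
  obtain ⟨x, h1, h2, h3⟩ := h V ρ
  exact ⟨x, h1, h2.trans hmn, h3⟩

theorem fix_equiv {L : Type u} [Group L] {L' : Type v} [Group L'] (e : L ≃* L') {r n : ℕ}
    (h : Cfsg.Agent.H415.PG3.Fix.{u, w} L r n) : Cfsg.Agent.H415.PG3.Fix.{v, w} L' r n := by
  intro V _ _ _ _ ρ
  obtain ⟨x, h1, h2, v, hv0, hv⟩ := h V (ρ.comp e.toMonoidHom)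
  exact ⟨e x, by rwa [MulEquiv.orderOf_eq], by rwa [MulEquiv.orderOf_eq], v, hv0, hv⟩

/-- **`Fix` for `G₂(q)`, `q = 3^k`, `k ≥ 2`, in characteristic `r ≠ 3`, `r` not dividing `q² + q + 1`.** -/
theorem fix_G2 {q : ℕ} (hF : Fintype.card F = q) (hq : ∃ k : ℕ, 2 ≤ k ∧ q = 3 ^ k) {r : ℕ} (hr : r.Prime) (hr3 : r ≠ 3)
    (hrn : ¬ r ∣ q ^ 2 + q + 1) :
    Cfsg.Agent.H415.PG3.Fix.{u, w} ↥(chevG2.group F) r ((q ^ 2 + q + 1) * (q ^ 2 - q + 1)) := by
  obtain ⟨k, hk, rfl⟩ := hq
  obtain ⟨e⟩ := Cfsg.Agent.H148.Oct.nonempty_equiv F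
  apply fix_equiv e
  by_cases hne : k = 2 ∧ r = 2
  · obtain ⟨rfl, rfl⟩ := hne
    have hchar : CharP F 3 := by
      obtain ⟨p, hp⟩ := CharP.exists F
      obtain ⟨n, hpp, hn⟩ := FiniteField.card F p
      rw [hF] at hn
      have h1 : p ∣ 3 ^ 2 := by
        rw [hn]; exact dvd_pow_self p n.ne_zero
      have h2 := (Nat.prime_dvd_prime_iff_eq hpp Nat.prime_three).1 (hpp.dvd_of_dvd_pow h1)
      rw [← h2]; exact hp
    exact fix_mono (fix_two hchar) (by norm_num)
  · exact fix_mono (fix_gen hF hk hr hr3 hrn hne) (dvd_mul_right _ _)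

end Main

end Cfsg.Agent.H420.PG.G2
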