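import Mathlib
import Cfsg.Agent.H420.PG.G2SL

/-!
# The Singer torus of `SL₃(q)`, `q` a power of three, and its Frobenius automorphism (helper420)

`E / F` is an extension of degree three of finite fields of characteristic three.
* `exists_basis` : a basis `1, b, c` of `E` over `F` in which the Frobenius automorphism has the matrix `u 1 1 0`;
* `Tor F E` : the elements of norm one, `psi e : Tor F E →* SL₃(F)`;
* `regular_pt`, `regular_ln` : no element `≠ 1` fixes a point or a line;
* `card_tor`, `card_A` : the orders.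
-/

set_option autoImplicit false
set_option linter.unusedSectionVars false

namespace Cfsg.Agent.H420.PG.G2

open Matrix Module FiniteField

variable {F E : Type*} [Field F] [Fintype F] [CharP F 3] [Field E] [Fintype E] [Algebra F E]

theorem cube_eq_one {K : Type*} [Field K] [CharP K 3] {c : K} (h : c ^ 3 = 1) : c = 1 := by
  have h30 : (3 : K) = 0 := by exact_mod_cast CharP.cast_eq_zero K 3
  have h1 : (c - 1) ^ 3 = 0 := by
    linear_combination h + (c - c ^ 2) * h30
  exact sub_eq_zero.1 (pow_eq_zero_iff (by norm_num) |>.1 h1)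

theorem charE (F E : Type*) [Field F] [CharP F 3] [Field E] [Algebra F E] : CharP E 3 :=
  charP_of_injective_algebraMap (algebraMap F E).injective 3

/-- the Frobenius automorphism -/
noncomputable def phi (F E : Type*) [Field F] [Fintype F] [Field E] [Fintype E] [Algebra F E] : Gal(E/F) :=
  frobeniusAlgEquivOfAlgebraic F E

theorem phi_apply (x : E) : phi F E x = x ^ Fintype.card F := rfl

theorem trace_eq (h3 : finrank F E = 3) (x : E) : algebraMap F E (Algebra.trace F E x) =
    x + phi F E x + phi F E (phi F E x) := by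
  rw [algebraMap_trace_eq_sum_pow, h3, Finset.sum_range_succ, Finset.sum_range_succ, Finset.sum_range_succ,
    Finset.sum_range_zero, zero_add, pow_zero, pow_one, pow_one, Nat.card_eq_fintype_card, phi_apply, phi_apply, pow_two,
    pow_mul]

theorem phi_three (h3 : finrank F E = 3) (x : E) : phi F E (phi F E (phi F E x)) = x := by
  have h : phi F E ^ 3 = 1 := by
    rw [← h3, ← orderOf_frobeniusAlgEquivOfAlgebraic F E]
    exact pow_orderOf_eq_one _
  have h1 := congrArg (fun f : Gal(E/F) => f x) h
  exact h1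

/-- the basis -/
theorem exists_basis (h3 : finrank F E = 3) : ∃ e : Basis (Fin 3) F E, e 0 = 1 ∧ phi F E (e 1) = e 0 + e 1 ∧
    phi F E (e 2) = e 1 + e 2 := by
  have hE : CharP E 3 := charE F E
  obtain ⟨z, hz⟩ := Algebra.trace_surjective F E 1
  have hz1 := trace_eq h3 z
  rw [hz, map_one] at hz1
  set P := phi F E with hP
  have h30 : (3 : E) = 0 := by exact_mod_cast CharP.cast_eq_zero E 3
  set y := P z - z with hy
  have hy1 : P y = 1 + y := by
    rw [hy, map_sub]
    linear_combination -hz1 - (P z) * h30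
  have hli : LinearIndependent F ![(1 : E), y, z] := by
    rw [Fintype.linearIndependent_iff]
    intro g hg
    rw [Fin.sum_univ_three] at hg
    simp only [Matrix.cons_val_zero, Matrix.cons_val_one, Matrix.cons_val] at hg
    have h1 : g 1 • (1 : E) + g 2 • y = 0 := by
      have h2 := congrArg P hg
      rw [map_zero, map_add, map_add, map_smul, map_smul, map_smul, map_one, hy1,
        show P z = y + z by rw [hy]; ring] at h2
      have h3 : g 1 • (1 : E) + g 2 • y = (g 0 • (1 : E) + g 1 • (1 + y) + g 2 • (y + z)) -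
          (g 0 • (1 : E) + g 1 • y + g 2 • z) := by
        rw [smul_add, smul_add]; abel
      rw [h3, h2, hg, sub_self]
    have h4 : g 2 • (1 : E) = 0 := by
      have h2 := congrArg P h1
      rw [map_zero, map_add, map_smul, map_smul, map_one, hy1] at h2
      have h3 : g 2 • (1 : E) = (g 1 • (1 : E) + g 2 • (1 + y)) - (g 1 • (1 : E) + g 2 • y) := by
        rw [smul_add]; abel
      rw [h3, h2, h1, sub_self]
    have h5 : g 2 = 0 := (smul_eq_zero.1 h4).resolve_right one_ne_zero
    rw [h5, zero_smul, add_zero] at h1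
    have h6 : g 1 = 0 := (smul_eq_zero.1 h1).resolve_right one_ne_zero
    rw [h5, h6, zero_smul, zero_smul, add_zero, add_zero] at hg
    have h7 : g 0 = 0 := (smul_eq_zero.1 hg).resolve_right one_ne_zero
    intro i
    fin_cases i
    · exact h7
    · exact h6
    · exact h5
  refine ⟨basisOfLinearIndependentOfCardEqFinrank hli (by rw [Fintype.card_fin, h3]), ?_, ?_, ?_⟩
  · rw [coe_basisOfLinearIndependentOfCardEqFinrank]; rfl
  · rw [coe_basisOfLinearIndependentOfCardEqFinrank]
    exact hy1
  · rw [coe_basisOfLinearIndependentOfCardEqFinrank]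
    show P z = y + z
    rw [hy]; ring

/-- the elements of norm one -/
noncomputable def Tor (F E : Type*) [Field F] [Field E] [Algebra F E] : Subgroup Eˣ :=
  (Units.map (Algebra.norm F : E →* F)).ker

theorem mem_tor {t : Eˣ} : t ∈ Tor F E ↔ Algebra.norm F (t : E) = 1 := by
  rw [Tor, MonoidHom.mem_ker, Units.ext_iff]
  rfl

theorem card_tor (h3 : finrank F E = 3) : Nat.card (Tor F E) = Fintype.card F ^ 2 + Fintype.card F + 1 := by
  have h1 := Subgroup.card_eq_card_quotient_mul_card_subgroup (Tor F E)
  have h2 : Nat.card (Eˣ ⧸ Tor F E) = Nat.card Fˣ := by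
    have h4 := QuotientGroup.quotientKerEquivOfSurjective (Units.map (Algebra.norm F : E →* F))
      (unitsMap_norm_surjective F E)
    exact Nat.card_congr h4.toEquiv
  rw [h2, Nat.card_units, Nat.card_units, Nat.card_eq_fintype_card, Nat.card_eq_fintype_card,
    Module.card_eq_pow_finrank (K := F) (V := E), h3] at h1
  have hq : 1 < Fintype.card F := Fintype.one_lt_card
  obtain ⟨k, hk⟩ : ∃ k, Fintype.card F = k + 1 := ⟨Fintype.card F - 1, by omega⟩
  rw [hk] at h1 ⊢
  rw [Nat.add_sub_cancel] at h1
  have h5 : (k + 1) ^ 3 - 1 = k * ((k + 1) ^ 2 + (k + 1) + 1) := by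
    have : (k + 1) ^ 3 = k * ((k + 1) ^ 2 + (k + 1) + 1) + 1 := by ring
    omega
  rw [h5] at h1
  exact (Nat.eq_of_mul_eq_mul_left (by omega) h1).symm

section Basis

variable (e : Basis (Fin 3) F E)

/-- the matrices of the multiplications -/
noncomputable def psi : Tor F E →* Matrix.SpecialLinearGroup (Fin 3) F where
  toFun t := ⟨Algebra.leftMulMatrix e ((t : Eˣ) : E), by
    rw [← Algebra.norm_eq_matrix_det]
    exact mem_tor.1 t.2⟩
  map_one' := by
    apply eqM
    show Algebra.leftMulMatrix e (1 : E) = 1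
    rw [map_one]
  map_mul' s t := by
    apply eqM
    show Algebra.leftMulMatrix e (((s : Eˣ) : E) * ((t : Eˣ) : E)) = Algebra.leftMulMatrix e ((s : Eˣ) : E) *
      Algebra.leftMulMatrix e ((t : Eˣ) : E)
    rw [map_mul]

theorem psi_apply (t : Tor F E) (i j : Fin 3) : (psi e t).1 i j = e.repr (((t : Eˣ) : E) * e j) i := by
  show Algebra.leftMulMatrix e ((t : Eˣ) : E) i j = _
  rw [Algebra.leftMulMatrix_eq_repr_mul]

theorem eq_one_of_algebraMap {t : Tor F E} (h3 : finrank F E = 3) {c : F} (h : ((t : Eˣ) : E) = algebraMap F E c) : t = 1 := by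
  have h1 := mem_tor.1 t.2
  rw [h, Algebra.norm_algebraMap, h3] at h1
  have h2 := cube_eq_one h1
  apply Subtype.ext
  apply Units.ext
  rw [h, h2, map_one]
  rfl

/-- no fixed points -/
theorem regular_pt (h3 : finrank F E = 3) {t : Tor F E} (ht : t ≠ 1) (h : (psi e t).1 1 0 = 0) : (psi e t).1 2 0 ≠ 0 := by
  intro h2
  rw [psi_apply] at h h2
  apply ht
  have h4 : ((t : Eˣ) : E) * e 0 = e.repr (((t : Eˣ) : E) * e 0) 0 • e 0 := by
    conv_lhs => rw [← e.sum_repr (((t : Eˣ) : E) * e 0)]
    rw [Fin.sum_univ_three, h, h2, zero_smul, zero_smul, add_zero, add_zero]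
  rw [Algebra.smul_def] at h4
  exact eq_one_of_algebraMap h3 (mul_right_cancel₀ (e.ne_zero 0) h4)

/-- no fixed lines -/
theorem regular_ln (h3 : finrank F E = 3) {t : Tor F E} (ht : t ≠ 1) (h : (psi e t).1 2 0 = 0) : (psi e t).1 2 1 ≠ 0 := by
  intro h2
  apply ht
  set c := (psi e t).1 2 2 with hc
  have h4 : Algebra.norm F (((t : Eˣ) : E) - algebraMap F E c) = 0 := by
    rw [Algebra.norm_eq_matrix_det e]
    apply Matrix.det_eq_zero_of_row_eq_zero 2
    intro j
    rw [map_sub, Matrix.sub_apply]
    have h5 : Algebra.leftMulMatrix e (algebraMap F E c) = Matrix.scalar (Fin 3) c := by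
      rw [AlgHom.commutes]; rfl
    rw [h5]
    have h6 : Algebra.leftMulMatrix e ((t : Eˣ) : E) 2 j = (psi e t).1 2 j := rfl
    rw [h6]
    fin_cases j
    · simpa using h
    · simpa using h2
    · simp [← hc]
  rw [Algebra.norm_eq_zero_iff, sub_eq_zero] at h4
  exact eq_one_of_algebraMap h3 h4

theorem psi_inv (t : Tor F E) : (psi e t⁻¹).1 2 0 = (psi e t).1 1 0 * (psi e t).1 2 1 - (psi e t).1 1 1 * (psi e t).1 2 0 := by
  rw [map_inv]
  show (Matrix.adjugate (psi e t).1) 2 0 = _
  rw [Matrix.adjugate_fin_three]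
  simp

/-! ### The automorphisms -/

/-- the action of the Galois group on the torus -/
noncomputable def act : Gal(E/F) →* MulAut (Tor F E) where
  toFun g :=
    { toFun := fun t => ⟨Units.map (g : E →* E) t.1, by
        rw [mem_tor]
        show Algebra.norm F (g ((t : Eˣ) : E)) = 1
        rw [Algebra.norm_eq_of_algEquiv]
        exact mem_tor.1 t.2⟩
      invFun := fun t => ⟨Units.map (g.symm : E →* E) t.1, by
        rw [mem_tor]
        show Algebra.norm F (g.symm ((t : Eˣ) : E)) = 1
        rw [Algebra.norm_eq_of_algEquiv]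
        exact mem_tor.1 t.2⟩
      left_inv := fun t => by
        apply Subtype.ext
        apply Units.ext
        exact g.symm_apply_apply _
      right_inv := fun t => by
        apply Subtype.ext
        apply Units.ext
        exact g.apply_symm_apply _
      map_mul' := fun s t => by
        apply Subtype.ext
        apply Units.ext
        exact map_mul g _ _ }
  map_one' := by
    ext t
    rfl
  map_mul' g h := by
    ext t
    rfl

theorem act_coe (g : Gal(E/F)) (t : Tor F E) : ((act g t : Eˣ) : E) = g ((t : Eˣ) : E) := rfl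

/-- the matrices of the automorphisms -/
noncomputable def sgm (h3 : finrank F E = 3) : Gal(E/F) →* Matrix.SpecialLinearGroup (Fin 3) F where
  toFun g := ⟨LinearMap.toMatrix e e g.toLinearMap, by
    have h1 : g ^ 3 = 1 := by
      have h2 : Nat.card Gal(E/F) = 3 := by rw [IsGalois.card_aut_eq_finrank, h3]
      rw [← h2]
      exact pow_card_eq_one'
    have h2 : (LinearMap.toMatrix e e g.toLinearMap) ^ 3 = 1 := by
      rw [pow_succ, pow_two, ← LinearMap.toMatrix_comp, ← LinearMap.toMatrix_comp, ← LinearMap.toMatrix_id (v₁ := e)]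
      congr 1
      ext x
      have h3 := congrArg (fun f : Gal(E/F) => f x) h1
      exact h3
    have h4 := congrArg Matrix.det h2
    rw [Matrix.det_pow, Matrix.det_one] at h4
    exact cube_eq_one h4⟩
  map_one' := by
    apply eqM
    show LinearMap.toMatrix e e _ = 1
    rw [← LinearMap.toMatrix_id (v₁ := e)]
    rfl
  map_mul' g h := by
    apply eqM
    show LinearMap.toMatrix e e _ = LinearMap.toMatrix e e _ * LinearMap.toMatrix e e _
    rw [← LinearMap.toMatrix_comp]
    rfl

theorem sgm_psi (h3 : finrank F E = 3) (g : Gal(E/F)) (t : Tor F E) :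
    sgm e h3 g * psi e t = psi e (act g t) * sgm e h3 g := by
  apply eqM
  show LinearMap.toMatrix e e g.toLinearMap * Algebra.leftMulMatrix e ((t : Eˣ) : E) =
    Algebra.leftMulMatrix e (g ((t : Eˣ) : E)) * LinearMap.toMatrix e e g.toLinearMap
  rw [Algebra.leftMulMatrix_apply, Algebra.leftMulMatrix_apply, ← LinearMap.toMatrix_comp, ← LinearMap.toMatrix_comp]
  congr 1
  ext x
  show g (((t : Eˣ) : E) * x) = g ((t : Eˣ) : E) * g x
  rw [map_mul]

theorem sgm_phi (h3 : finrank F E = 3) (h0 : e 0 = 1) (h1 : phi F E (e 1) = e 0 + e 1)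
    (h2 : phi F E (e 2) = e 1 + e 2) : sgm e h3 (phi F E) = u 1 1 0 := by
  apply eqM
  rw [u_coe]
  show LinearMap.toMatrix e e (phi F E).toLinearMap = _
  ext i j
  rw [LinearMap.toMatrix_apply]
  show e.repr (phi F E (e j)) i = _
  have h0' : phi F E (e 0) = e 0 := by rw [h0, map_one]
  fin_cases j
  · show e.repr (phi F E (e 0)) i = _
    rw [h0']
    fin_cases i <;> simp
  · show e.repr (phi F E (e 1)) i = _
    rw [h1]
    fin_cases i <;> simp
  · show e.repr (phi F E (e 2)) i = _
    rw [h2]
    fin_cases i <;> simp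

theorem act_free (h3 : finrank F E = 3) (g : Gal(E/F)) (hg : g ≠ 1) (t : Tor F E) (ht : act g t = t) : t = 1 := by
  have hc : Nat.card Gal(E/F) = 3 := by rw [IsGalois.card_aut_eq_finrank, h3]
  have h1 : ∀ h : Gal(E/F), h ((t : Eˣ) : E) = ((t : Eˣ) : E) := by
    intro h
    have : Fact (Nat.Prime 3) := ⟨Nat.prime_three⟩
    have h2 : ∀ n : ℕ, (g ^ n) ((t : Eˣ) : E) = ((t : Eˣ) : E) := by
      intro n
      induction n with
      | zero => rfl
      | succ n ih =>
        rw [pow_succ, AlgEquiv.mul_apply]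
        have h4 : g ((t : Eˣ) : E) = ((t : Eˣ) : E) := by
          rw [← act_coe, ht]
        rw [h4, ih]
    have h5 : ∃ m : ℕ, g ^ m = h := by
      have h6 : h ∈ Submonoid.powers g := mem_powers_of_prime_card hc hg
      exact h6
    obtain ⟨m, hm⟩ := h5
    rw [← hm, h2]
  have h2 : ((t : Eˣ) : E) ∈ Set.range (algebraMap F E) := by
    rw [IsGalois.mem_range_algebraMap_iff_fixed]
    exact h1
  obtain ⟨c, hc'⟩ := h2
  exact eq_one_of_algebraMap h3 hc'.symm

/-! ### Counting -/

theorem exists_cube (c : F) : ∃ d : F, d ^ 3 = c := by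
  have h1 : Function.Injective (frobenius F 3) := (frobenius F 3).injective
  have h2 : Function.Surjective (frobenius F 3) := Finite.surjective_of_injective h1
  exact h2 c

theorem card_A (h3 : finrank F E = 3) (h0 : e 0 = 1) :
    Nat.card {t : Tor F E // (psi e t).1 2 0 = 0} = Fintype.card F + 1 := by
  classical
  -- the nonzero vectors of the line
  let L := {y : E // y ≠ 0 ∧ e.repr y 2 = 0}
  have hL : Nat.card L = Fintype.card F ^ 2 - 1 := by
    let f : L ≃ {x : F × F // x ≠ 0} :=
      { toFun := fun y => ⟨(e.repr y.1 0, e.repr y.1 1), by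
          intro h
          have ha := congrArg Prod.fst h
          have hb := congrArg Prod.snd h
          apply y.2.1
          rw [← e.sum_repr y.1, Fin.sum_univ_three, y.2.2]
          show e.repr y.1 0 • e 0 + e.repr y.1 1 • e 1 + _ = 0
          rw [show e.repr y.1 0 = 0 from ha, show e.repr y.1 1 = 0 from hb, zero_smul, zero_smul, zero_smul, add_zero,
            add_zero]⟩
        invFun := fun x => ⟨x.1.1 • e 0 + x.1.2 • e 1, by
          constructor
          · intro h
            apply x.2
            have ha := congrArg (fun z => e.repr z 0) h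
            have hb := congrArg (fun z => e.repr z 1) h
            apply Prod.ext
            · simpa using ha
            · simpa using hb
          · simp⟩
        left_inv := by
          intro y
          apply Subtype.ext
          show e.repr y.1 0 • e 0 + e.repr y.1 1 • e 1 = y.1
          conv_rhs => rw [← e.sum_repr y.1, Fin.sum_univ_three, y.2.2, zero_smul, add_zero]
        right_inv := by
          intro x
          apply Subtype.ext
          apply Prod.ext
          · simp
          · simp }
    rw [Nat.card_congr f, Nat.card_eq_fintype_card, Fintype.card_subtype_compl, Fintype.card_prod]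
    rw [Fintype.card_subtype_eq, pow_two]
  have hx : ∀ (x : E) (c : F), e.repr (algebraMap F E c * x) 2 = c * e.repr x 2 := by
    intro x c
    rw [← Algebra.smul_def, map_smul]
    rfl
  have hM : ∀ t : Tor F E, (psi e t).1 2 0 = e.repr ((t : Eˣ) : E) 2 := by
    intro t
    rw [psi_apply, h0, mul_one]
  let g : (Fˣ × {t : Tor F E // (psi e t).1 2 0 = 0}) → L := fun p =>
    ⟨algebraMap F E (p.1 : F) * ((p.2.1 : Eˣ) : E), by
      constructor
      · exact mul_ne_zero ((map_ne_zero _).2 p.1.ne_zero) (p.2.1 : Eˣ).ne_zero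
      · rw [hx, ← hM, p.2.2, mul_zero]⟩
  have hg : Function.Bijective g := by
    constructor
    · rintro ⟨c, t⟩ ⟨c', t'⟩ h
      have h1 : algebraMap F E (c : F) * ((t.1 : Eˣ) : E) = algebraMap F E (c' : F) * ((t'.1 : Eˣ) : E) :=
        congrArg Subtype.val h
      have h2 : (((t.1 * t'.1⁻¹ : Tor F E) : Eˣ) : E) = algebraMap F E ((c' : F) * (c : F)⁻¹) := by
        have hc : algebraMap F E (c : F) ≠ 0 := (map_ne_zero _).2 c.ne_zero
        have ht : ((t'.1 : Eˣ) : E) ≠ 0 := (t'.1 : Eˣ).ne_zero
        rw [Subgroup.coe_mul, Units.val_mul, Subgroup.coe_inv, Units.val_inv_eq_inv_val, map_mul, map_inv₀]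
        field_simp
        linear_combination h1
      have h4 := eq_one_of_algebraMap h3 h2
      have h5 : t.1 = t'.1 := mul_inv_eq_one.1 h4
      rw [h5] at h1
      have h6 := (algebraMap F E).injective (mul_right_cancel₀ (t'.1 : Eˣ).ne_zero h1)
      exact Prod.ext (Units.ext h6) (Subtype.ext h5)
    · rintro ⟨y, hy0, hy2⟩
      obtain ⟨c, hc⟩ := exists_cube (Algebra.norm F y)
      have hN : Algebra.norm F y ≠ 0 := fun h => hy0 (Algebra.norm_eq_zero_iff.1 h)
      have hc0 : c ≠ 0 := by
        rintro rfl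
        apply hN
        rw [← hc]
        ring
      have hc1 : algebraMap F E c ≠ 0 := (map_ne_zero _).2 hc0
      have ht : Units.mk0 (algebraMap F E c⁻¹ * y) (mul_ne_zero ((map_ne_zero _).2 (inv_ne_zero hc0)) hy0) ∈ Tor F E := by
        rw [mem_tor, Units.val_mk0, map_mul, Algebra.norm_algebraMap, h3, ← hc, inv_pow, inv_mul_cancel₀ (pow_ne_zero 3 hc0)]
      refine ⟨(Units.mk0 c hc0, ⟨⟨_, ht⟩, ?_⟩), ?_⟩
      · rw [hM]
        show e.repr (algebraMap F E c⁻¹ * y) 2 = 0
        rw [hx, hy2, mul_zero]
      · apply Subtype.ext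
        show algebraMap F E c * (algebraMap F E c⁻¹ * y) = y
        rw [← mul_assoc, ← map_mul, mul_inv_cancel₀ hc0, map_one, one_mul]
  have h5 := Nat.card_congr (Equiv.ofBijective g hg)
  rw [Nat.card_prod, Nat.card_units, Nat.card_eq_fintype_card, hL] at h5
  have hq : 1 < Fintype.card F := Fintype.one_lt_card
  obtain ⟨k, hk⟩ : ∃ k, Fintype.card F = k + 1 := ⟨Fintype.card F - 1, by omega⟩
  rw [hk] at h5 ⊢
  rw [Nat.add_sub_cancel] at h5
  have h6 : (k + 1) ^ 2 - 1 = k * (k + 1 + 1) := by
    have : (k + 1) ^ 2 = k * (k + 1 + 1) + 1 := by ring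
    omega
  rw [h6] at h5
  exact Nat.eq_of_mul_eq_mul_left (by omega) h5

/-- the sum over the torus of a function depending on the Bruhat cell only -/
theorem sum_cells (h3 : finrank F E = 3) (h0 : e 0 = 1) {W : Type*} [AddCommGroup W] [Fintype (Tor F E)] (f : Tor F E → W) (v X Y Z : W)
    (hv : f 1 = v) (hX : ∀ t, t ≠ 1 → (psi e t).1 2 0 = 0 → f t = X)
    (hY : ∀ t, t ≠ 1 → (psi e t).1 1 0 * (psi e t).1 2 1 - (psi e t).1 1 1 * (psi e t).1 2 0 = 0 → f t = Y)
    (hZ : ∀ t, t ≠ 1 → (psi e t).1 2 0 ≠ 0 → (psi e t).1 1 0 * (psi e t).1 2 1 - (psi e t).1 1 1 * (psi e t).1 2 0 ≠ 0 →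
      f t = Z) :
    ∑ t, f t = v + Fintype.card F • X + Fintype.card F • Y + (Fintype.card F ^ 2 - Fintype.card F) • Z := by
  classical
  have hone : (psi e (1 : Tor F E)).1 2 0 = 0 := by
    rw [map_one]
    rfl
  set A : Finset (Tor F E) := Finset.univ.filter fun t => (psi e t).1 2 0 = 0 with hA
  set B : Finset (Tor F E) := Finset.univ.filter fun t => (psi e t⁻¹).1 2 0 = 0 with hB
  have hAc : A.card = Fintype.card F + 1 := by
    rw [← card_A e h3 h0, Nat.card_eq_fintype_card, Fintype.card_subtype]
  have hBc : B.card = Fintype.card F + 1 := by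
    rw [← hAc]
    refine Finset.card_bij (fun t _ => t⁻¹) (fun t ht => ?_) (fun a _ b _ h => inv_injective h) (fun t ht => ?_)
    · rw [hB, Finset.mem_filter] at ht
      rw [hA, Finset.mem_filter]
      exact ⟨Finset.mem_univ _, ht.2⟩
    · refine ⟨t⁻¹, ?_, inv_inv t⟩
      rw [hA, Finset.mem_filter] at ht
      rw [hB, Finset.mem_filter, inv_inv]
      exact ⟨Finset.mem_univ _, ht.2⟩
  have h1A : (1 : Tor F E) ∈ A := by
    rw [hA, Finset.mem_filter]; exact ⟨Finset.mem_univ _, hone⟩
  have h1B : (1 : Tor F E) ∈ B := by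
    rw [hB, Finset.mem_filter, inv_one]; exact ⟨Finset.mem_univ _, hone⟩
  set A' := A.erase 1 with hA'
  set B' := B.erase 1 with hB'
  have hA'c : A'.card = Fintype.card F := by rw [hA', Finset.card_erase_of_mem h1A, hAc]; omega
  have hB'c : B'.card = Fintype.card F := by rw [hB', Finset.card_erase_of_mem h1B, hBc]; omega
  have hd1 : (1 : Tor F E) ∉ A' ∪ B' := by
    rw [Finset.mem_union, hA', hB']
    simp
  have hAB : Disjoint A' B' := by
    rw [Finset.disjoint_left]
    intro t ht ht'
    rw [hA', Finset.mem_erase, hA, Finset.mem_filter] at ht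
    rw [hB', Finset.mem_erase, hB, Finset.mem_filter, psi_inv, ht.2.2, mul_zero, sub_zero] at ht'
    rcases mul_eq_zero.1 ht'.2.2 with h | h
    · exact regular_pt e h3 ht.1 h ht.2.2
    · exact regular_ln e h3 ht.1 ht.2.2 h
  set C := (insert 1 (A' ∪ B'))ᶜ with hC
  have hCc : C.card = Fintype.card F ^ 2 - Fintype.card F := by
    rw [hC, Finset.card_compl, Finset.card_insert_of_notMem hd1, Finset.card_union_of_disjoint hAB, hA'c, hB'c,
      ← Nat.card_eq_fintype_card, card_tor h3]
    omega
  rw [← Finset.sum_add_sum_compl (insert 1 (A' ∪ B')) f, ← hC, Finset.sum_insert hd1, Finset.sum_union hAB, hv]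
  have e1 : ∑ x ∈ A', f x = Fintype.card F • X := by
    rw [Finset.sum_congr rfl (g := fun _ => X), Finset.sum_const, hA'c]
    intro t ht
    rw [hA', Finset.mem_erase, hA, Finset.mem_filter] at ht
    exact hX t ht.1 ht.2.2
  have e2 : ∑ x ∈ B', f x = Fintype.card F • Y := by
    rw [Finset.sum_congr rfl (g := fun _ => Y), Finset.sum_const, hB'c]
    intro t ht
    rw [hB', Finset.mem_erase, hB, Finset.mem_filter, psi_inv] at ht
    exact hY t ht.1 ht.2.2
  have e3 : ∑ x ∈ C, f x = (Fintype.card F ^ 2 - Fintype.card F) • Z := by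
    rw [Finset.sum_congr rfl (g := fun _ => Z), Finset.sum_const, hCc]
    intro t ht
    rw [hC, Finset.mem_compl, Finset.mem_insert, Finset.mem_union, not_or, not_or] at ht
    obtain ⟨ht1, ht2, ht3⟩ := ht
    apply hZ t ht1
    · intro h
      apply ht2
      rw [hA', Finset.mem_erase, hA, Finset.mem_filter]
      exact ⟨ht1, Finset.mem_univ _, h⟩
    · intro h
      apply ht3
      rw [hB', Finset.mem_erase, hB, Finset.mem_filter, psi_inv]
      exact ⟨ht1, Finset.mem_univ _, h⟩
  rw [e1, e2, e3]
  abel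

end Basis

end Cfsg.Agent.H420.PG.G2
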