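import Mathlib
import Cfsg.Agent.H319.One.Weights

/-!
# Fixed spaces of elementary abelian `3`-groups; common eigenvectors (helper420)

* `fx f` : the fixed vectors of an endomorphism;
* `dim3` : `3 ∑_{a ∈ A} dim V^a = |A| (dim V + 2 dim V^A)` for a finite abelian group `A` of exponent `3` acting on `V` in
  characteristic `≠ 3`;
* `exists_eigen` : a common eigenvector of a commutative group in an invariant subspace.
-/

set_option autoImplicit false
set_option linter.unusedSectionVars false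

namespace Cfsg.Agent.H420.PG.G2

open Module

section Fx

variable {𝕜 V : Type*} [Field 𝕜] [AddCommGroup V] [Module 𝕜 V]

/-- the fixed vectors of an endomorphism -/
def fx (f : Module.End 𝕜 V) : Submodule 𝕜 V := LinearMap.ker (f - 1)

theorem mem_fx {f : Module.End 𝕜 V} {v : V} : v ∈ fx f ↔ f v = v := by
  rw [fx, LinearMap.mem_ker, LinearMap.sub_apply, Module.End.one_apply, sub_eq_zero]

theorem fx_one : fx (1 : Module.End 𝕜 V) = ⊤ := by
  rw [eq_top_iff]
  intro v _
  rw [mem_fx]; rfl

/-- conjugate endomorphisms -/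
theorem finrank_conj {f g h h' : Module.End 𝕜 V} (hh : h * h' = 1) (hh' : h' * h = 1) (e : h * f = g * h) :
    finrank 𝕜 (fx f) = finrank 𝕜 (fx g) := by
  have a1 : ∀ v, h' (h v) = v := fun v => by
    rw [← Module.End.mul_apply, hh']; rfl
  have a2 : ∀ v, h (h' v) = v := fun v => by
    rw [← Module.End.mul_apply, hh]; rfl
  have e1 : ∀ v, h (f v) = g (h v) := fun v => by
    rw [← Module.End.mul_apply, e]; rfl
  let E : V ≃ₗ[𝕜] V := LinearEquiv.ofLinearMap h h' (LinearMap.ext a2) (LinearMap.ext a1)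
  have hE : (fx f).map E.toLinearMap = fx g := by
    ext v
    constructor
    · rintro ⟨w, hw, rfl⟩
      rw [SetLike.mem_coe, mem_fx] at hw
      rw [mem_fx]
      show g (h w) = h w
      rw [← e1, hw]
    · intro hv
      rw [mem_fx] at hv
      refine ⟨h' v, ?_, a2 v⟩
      rw [SetLike.mem_coe, mem_fx]
      have h3 : h (f (h' v)) = h (h' v) := by rw [e1, a2, hv]
      have h4 := congrArg h' h3
      rw [a1, a1] at h4
      exact h4
  rw [← hE]
  exact (E.submoduleMap (fx f)).finrank_eq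

end Fx

section D3

variable {𝕜 V : Type*} [Field 𝕜] [IsAlgClosed 𝕜] [AddCommGroup V] [Module 𝕜 V] [FiniteDimensional 𝕜 V]

open Cfsg.Agent.H319.One.Weights in
theorem dim3_mul {P : Type*} [CommGroup P] [Fintype P] (hexp : ∀ x : P, x ^ 3 = 1) (hP : (Fintype.card P : 𝕜) ≠ 0)
    (R : P →* Module.End 𝕜 V) :
    3 * ∑ x : P, finrank 𝕜 (fx (R x)) = Fintype.card P * (finrank 𝕜 V + 2 * finrank 𝕜 (fixS R ⊤)) := by
  classical
  have := finite_dual hP
  have : Fintype (P →* 𝕜ˣ) := Fintype.ofFinite _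
  set m : (P →* 𝕜ˣ) → ℕ := fun χ => finrank 𝕜 ↥(wt R χ) with hm
  have hV : finrank 𝕜 V = ∑ χ, m χ := by
    have h1 := finrank_eq_sum R hP ⊤ (fun _ _ _ => Submodule.mem_top)
    rw [finrank_top] at h1
    rw [h1]
    refine Finset.sum_congr rfl fun χ _ => ?_
    rw [top_inf_eq]
  have hfx : ∀ x : P, fx (R x) = fixS R (Subgroup.zpowers x) := by
    intro x
    ext v
    rw [mem_fx, mem_fixS]
    constructor
    · rintro hv y ⟨k, rfl⟩
      have key : ∀ n : ℕ, R (x ^ n) v = v := by
        intro n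
        induction n with
        | zero => rw [pow_zero, map_one]; rfl
        | succ n ih => rw [pow_succ, map_mul, Module.End.mul_apply, hv, ih]
      obtain ⟨n, hn⟩ : ∃ n : ℕ, x ^ k = x ^ n := by
        obtain ⟨n, hn⟩ : ∃ n : ℕ, (n : ℤ) = k % 3 := ⟨(k % 3).toNat, by omega⟩
        refine ⟨n, ?_⟩
        have h3 : x ^ (3 : ℤ) = 1 := by exact_mod_cast hexp x
        conv_lhs => rw [← Int.emod_add_mul_ediv k 3, zpow_add, zpow_mul, h3, one_zpow, mul_one, ← hn, zpow_natCast]
      show R (x ^ k) v = v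
      rw [hn, key]
    · intro hv
      exact hv x (Subgroup.mem_zpowers x)
  have h1 : ∑ x : P, finrank 𝕜 (fx (R x)) = ∑ χ, m χ * Fintype.card {x : P // χ x = 1} := by
    have h2 : ∀ x : P, finrank 𝕜 (fx (R x)) = ∑ χ : P →* 𝕜ˣ, if χ x = 1 then m χ else 0 := by
      intro x
      rw [hfx, finrank_fixS R hP]
      refine Finset.sum_congr rfl fun χ _ => ?_
      have h3 : Subgroup.zpowers (x : P) ≤ χ.ker ↔ χ (x : P) = 1 := by
        rw [Subgroup.zpowers_le, MonoidHom.mem_ker]
      by_cases h4 : χ (x : P) = 1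
      · rw [if_pos (h3.2 h4), if_pos h4]
      · rw [if_neg (fun h5 => h4 (h3.1 h5)), if_neg h4]
    simp_rw [h2]
    rw [Finset.sum_comm]
    refine Finset.sum_congr rfl fun χ _ => ?_
    rw [← Finset.sum_filter, Finset.sum_const, smul_eq_mul, mul_comm, Fintype.card_subtype]
  rw [h1, finrank_fixS R hP, hV, Finset.mul_sum, mul_add, Finset.mul_sum, Finset.mul_sum, Finset.mul_sum,
    ← Finset.sum_add_distrib]
  refine Finset.sum_congr rfl fun χ _ => ?_
  have hcard : Fintype.card {x : P // χ x = 1} = Nat.card χ.ker := by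
    rw [Nat.card_eq_fintype_card]
    exact Fintype.card_congr (Equiv.subtypeEquivRight fun x => (MonoidHom.mem_ker).symm)
  by_cases h : (⊤ : Subgroup P) ≤ χ.ker
  · rw [if_pos h, hcard, top_le_iff.1 h, Subgroup.card_top, Nat.card_eq_fintype_card]
    ring
  · rw [if_neg h, hcard, mul_zero, mul_zero, add_zero]
    have h5 : Nat.card χ.ker * Nat.card χ.range = Fintype.card P := by
      rw [← Nat.card_eq_fintype_card, ← Nat.card_congr (QuotientGroup.quotientKerEquivRange χ).toEquiv, mul_comm]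
      exact (Subgroup.card_eq_card_quotient_mul_card_subgroup χ.ker).symm
    have hfr : Finite χ.range := Finite.of_surjective χ.rangeRestrict χ.rangeRestrict_surjective
    have h4 : IsCyclic χ.range := inferInstance
    have h6 : Nat.card χ.range ∣ 3 := by
      obtain ⟨g, hg⟩ := h4.exists_generator
      rw [← orderOf_eq_card_of_forall_mem_zpowers hg]
      apply orderOf_dvd_of_pow_eq_one
      obtain ⟨y, hy⟩ := g.2
      apply Subtype.ext
      show (g : 𝕜ˣ) ^ 3 = 1
      rw [← hy, ← map_pow, hexp, map_one]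
    have h7 : Nat.card χ.range ≠ 1 := by
      intro h8
      apply h
      intro x _
      have h9 := (Subgroup.card_eq_one.1 h8)
      have h10 : χ x ∈ χ.range := ⟨_, rfl⟩
      rw [h9, Subgroup.mem_bot] at h10
      exact h10
    rcases (Nat.dvd_prime Nat.prime_three).1 h6 with h8 | h8
    · exact absurd h8 h7
    · rw [h8] at h5
      rw [← h5]
      ring

/-- **The dimension formula.** -/
theorem dim3 {A : Type*} [AddCommGroup A] [Fintype A] (h3 : ∀ a : A, a + a + a = 0) (hA : (Fintype.card A : 𝕜) ≠ 0)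
    (R : A → Module.End 𝕜 V) (h0 : R 0 = 1) (hadd : ∀ a b, R (a + b) = R a * R b) {M : Submodule 𝕜 V}
    (hM : ∀ v, v ∈ M ↔ ∀ a, R a v = v) :
    3 * ∑ a : A, finrank 𝕜 (fx (R a)) = Fintype.card A * (finrank 𝕜 V + 2 * finrank 𝕜 M) := by
  let R' : Multiplicative A →* Module.End 𝕜 V :=
    { toFun := fun a => R (Multiplicative.toAdd a)
      map_one' := h0
      map_mul' := fun a b => hadd _ _ }
  have h := dim3_mul (P := Multiplicative A) (𝕜 := 𝕜) (V := V) (fun x => by
    rw [pow_succ, pow_two]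
    exact h3 (Multiplicative.toAdd x)) (by rw [Fintype.card_multiplicative]; exact hA) R'
  rw [Fintype.card_multiplicative] at h
  have hM' : Cfsg.Agent.H319.One.Weights.fixS R' ⊤ = M := by
    ext v
    rw [hM, Cfsg.Agent.H319.One.Weights.mem_fixS]
    constructor
    · intro hv a
      exact hv (Multiplicative.ofAdd a) trivial
    · intro hv x _
      exact hv (Multiplicative.toAdd x)
  rw [hM'] at h
  rw [← h]
  congr 1
  exact Fintype.sum_equiv Multiplicative.ofAdd _ _ fun a => rfl

end D3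

/-- a common eigenvector in an invariant subspace -/
theorem exists_eigen {𝕜 V : Type*} [Field 𝕜] [IsAlgClosed 𝕜] [AddCommGroup V] [Module 𝕜 V] [FiniteDimensional 𝕜 V]
    {P : Type*} [CommGroup P] (R : P →* Module.End 𝕜 V) {M : Submodule 𝕜 V} (hM : M ≠ ⊥)
    (hR : ∀ p, ∀ v ∈ M, R p v ∈ M) : ∃ v ∈ M, v ≠ 0 ∧ ∃ μ : P →* 𝕜, ∀ p, R p v = μ p • v := by
  have hwf : WellFounded ((· < ·) : Submodule 𝕜 V → Submodule 𝕜 V → Prop) := wellFounded_lt
  let s : Set (Submodule 𝕜 V) := {U | U ≠ ⊥ ∧ U ≤ M ∧ ∀ a, ∀ v ∈ U, R a v ∈ U}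
  have hs : s.Nonempty := ⟨M, hM, le_refl _, hR⟩
  obtain ⟨U, ⟨hU0, hUM, hUA⟩, hUmin⟩ := hwf.has_min s hs
  have hscal : ∀ a, ∃ c : 𝕜, ∀ v ∈ U, R a v = c • v := by
    intro a
    have : Nontrivial U := Submodule.nontrivial_iff_ne_bot.2 hU0
    obtain ⟨c, hc⟩ := Module.End.exists_eigenvalue ((R a).restrict (hUA a))
    obtain ⟨u, hu⟩ := hc.exists_hasEigenvector
    refine ⟨c, ?_⟩
    have hU' : U ⊓ Module.End.eigenspace (R a) c ∈ s := by
      refine ⟨?_, inf_le_left.trans hUM, ?_⟩
      · intro h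
        apply hu.2
        have h1 : (u : V) ∈ U ⊓ Module.End.eigenspace (R a) c := by
          refine ⟨u.2, ?_⟩
          rw [SetLike.mem_coe, Module.End.mem_eigenspace_iff]
          have := hu.1
          rw [Module.End.mem_eigenspace_iff] at this
          exact congrArg Subtype.val this
        rw [h, Submodule.mem_bot] at h1
        exact Subtype.ext h1
      · rintro b v ⟨hv1, hv2⟩
        refine ⟨hUA b v hv1, ?_⟩
        rw [SetLike.mem_coe, Module.End.mem_eigenspace_iff] at hv2 ⊢
        calc R a (R b v) = R (a * b) v := by rw [map_mul]; rfl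
          _ = R b (R a v) := by rw [mul_comm, map_mul]; rfl
          _ = c • R b v := by rw [hv2, map_smul]
    have h2 : ¬ U ⊓ Module.End.eigenspace (R a) c < U := hUmin _ hU'
    have h3 : U ⊓ Module.End.eigenspace (R a) c = U := by
      by_contra h
      exact h2 (lt_of_le_of_ne inf_le_left h)
    intro v hv
    rw [← h3] at hv
    exact Module.End.mem_eigenspace_iff.1 hv.2
  obtain ⟨v, hv, hv0⟩ := Submodule.exists_mem_ne_zero_of_ne_bot hU0
  choose c hc using hscal
  refine ⟨v, hUM hv, hv0, ⟨⟨c, ?_⟩, ?_⟩, fun p => hc p v hv⟩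
  · have h1 := hc 1 v hv
    rw [map_one, Module.End.one_apply] at h1
    have h2 : (1 - c 1) • v = 0 := by rw [sub_smul, one_smul, ← h1, sub_self]
    exact (sub_eq_zero.1 ((smul_eq_zero.1 h2).resolve_right hv0)).symm
  · intro a b
    have h1 := hc (a * b) v hv
    rw [map_mul, Module.End.mul_apply, hc b v hv, map_smul, hc a v hv, smul_smul] at h1
    have h2 : (c b * c a - c (a * b)) • v = 0 := by rw [sub_smul, h1, sub_self]
    show c (a * b) = c a * c b
    rw [mul_comm (c a)]
    exact (sub_eq_zero.1 ((smul_eq_zero.1 h2).resolve_right hv0)).symm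

end Cfsg.Agent.H420.PG.G2
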