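import Cfsg.Agent.H420.PG.AbsF4
import Cfsg.Agent.ClassicalGeometry.PSL2Basic

/-!
# Elements of prime order dividing `q + 1` in `SL₂(q)`, `q` even (helper420)
-/

set_option autoImplicit false
set_option linter.unusedSectionVars false

namespace Cfsg.Agent.H420.PG

open Cfsg.Agent.ChevalleyStructure.SL2Hom (up lo mem_closure_SL2)
open Cfsg.Agent.Nodes.RGDFoldSL Cfsg.Agent.UGT.U2.FOne.SLInj
open scoped MatrixGroups

variable {K : Type*} [Field K]

theorem borel_pow {a b : K} (ha : a ≠ 0) (n : ℕ) : ∃ b' : K, (hS a * up b : SL(2, K)) ^ n = hS (a ^ n) * up b' := by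
  induction n with
  | zero => exact ⟨0, by rw [pow_zero, pow_zero, hS_one, up_zero, one_mul]⟩
  | succ n ih =>
    obtain ⟨b', hb'⟩ := ih
    have h1 : (up b' : SL(2, K)) * hS a = hS a * up ((a ^ 2)⁻¹ * b') := by
      rw [hS_mul_up ha, ← mul_assoc, mul_inv_cancel₀ (pow_ne_zero 2 ha), one_mul]
    refine ⟨(a ^ 2)⁻¹ * b' + b, ?_⟩
    rw [pow_succ, hb', mul_assoc, ← mul_assoc (up b'), h1, mul_assoc (hS a), ← up_add, ← mul_assoc,
      hS_mul_hS (pow_ne_zero n ha) ha, pow_succ a n]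

/-- an element of prime order dividing `q + 1` -/
theorem exists_elt [Fintype K] [CharP K 2] {s : ℕ} (hs : s.Prime) (hs2 : s ≠ 2) (hdvd : s ∣ Fintype.card K + 1) :
    ∃ t : SL(2, K), orderOf t = s ∧ ∀ i, 0 < i → i < s → (t ^ i).1 1 0 ≠ 0 := by
  classical
  have := Fact.mk hs
  have hq0 : 1 < Fintype.card K := Fintype.one_lt_card
  obtain ⟨t, ht⟩ := exists_prime_orderOf_dvd_card' (G := SL(2, K)) s (by
    rw [Cfsg.Agent.ClassicalGeometry.PSL2Basic.card_SL2]
    refine Dvd.dvd.mul_left ?_ _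
    have h1 : Fintype.card K ^ 2 - 1 = (Fintype.card K + 1) * (Fintype.card K - 1) := by
      have := Nat.sq_sub_sq (Fintype.card K) 1
      simpa using this
    rw [h1]
    exact hdvd.mul_right _)
  refine ⟨t, ht, ?_⟩
  intro i hi0 his h0
  have hne : t ^ i ≠ 1 := by
    intro h1
    have h2 := orderOf_dvd_of_pow_eq_one h1
    rw [ht] at h2
    exact absurd (Nat.le_of_dvd hi0 h2) (by omega)
  obtain ⟨a, b, ha, hab⟩ := borel (t ^ i) h0
  obtain ⟨b', hb'⟩ := borel_pow (b := b) ha (Fintype.card K - 1)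
  have h1 : a ^ (Fintype.card K - 1) = 1 := FiniteField.pow_card_sub_one_eq_one a ha
  rw [h1, hS_one, one_mul, ← hab] at hb'
  have h2 : (t ^ i) ^ ((Fintype.card K - 1) * 2) = 1 := by
    rw [pow_mul, hb', pow_two, ← up_add, CharTwo.add_self_eq_zero, up_zero]
  have h3 : orderOf (t ^ i) = s := by
    have h4 : (t ^ i) ^ s = 1 := by
      rw [← pow_mul, mul_comm, pow_mul, ← ht, pow_orderOf_eq_one, one_pow]
    exact orderOf_eq_prime h4 hne
  have h4 := orderOf_dvd_of_pow_eq_one h2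
  rw [h3] at h4
  rcases hs.dvd_mul.1 h4 with h5 | h5
  · have h6 := Nat.dvd_sub hdvd h5
    have h7 : Fintype.card K + 1 - (Fintype.card K - 1) = 2 := by omega
    rw [h7] at h6
    exact hs2 ((Nat.prime_dvd_prime_iff_eq hs Nat.prime_two).1 h6)
  · exact hs2 ((Nat.prime_dvd_prime_iff_eq hs Nat.prime_two).1 h5)

end Cfsg.Agent.H420.PG
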